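import Cfsg.Agent.H81.SpPres.SpBlock
import Cfsg.Agent.H81.SLnPres.TwoGen
import Cfsg.Agent.H81.SLnPres.PresTools

/-!
# The presentation of `Sp_{2m}(q)`
-/

set_option autoImplicit false
set_option maxHeartbeats 1000000

namespace Cfsg.Agent.H81.SpPres

open Equiv Matrix Cfsg.Agent.H64.SLCover Cfsg.Agent.H81.SLnPres
open Cfsg.Agent.H58.PSpFusion (lev levS iota)
open scoped MatrixGroups

theorem commute_of_gens {A B G : Type*} [Group A] [Group B] [Group G] (f : A →* G) (g : B →* G)
    (x : Fin 2 → A) (y : Fin 2 → B) (hx : Subgroup.closure (Set.range x) = ⊤)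
    (hy : Subgroup.closure (Set.range y) = ⊤) (h : ∀ i j, Commute (f (x i)) (g (y j))) (a : A) (b : B) :
    Commute (f a) (g b) := by
  have h1 : ∀ i, ∀ b, Commute (f (x i)) (g b) := by
    intro i b
    have hle : (⊤ : Subgroup B) ≤ (Subgroup.centralizer {f (x i)}).comap g := by
      rw [← hy, Subgroup.closure_le]
      rintro _ ⟨j, rfl⟩
      rw [SetLike.mem_coe, Subgroup.mem_comap, Subgroup.mem_centralizer_iff]
      rintro z rfl
      exact h i j
    exact (Subgroup.mem_centralizer_iff.1 (hle (Subgroup.mem_top b)) _ rfl)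
  have hle : (⊤ : Subgroup A) ≤ (Subgroup.centralizer {g b}).comap f := by
    rw [← hx, Subgroup.closure_le]
    rintro _ ⟨i, rfl⟩
    rw [SetLike.mem_coe, Subgroup.mem_comap, Subgroup.mem_centralizer_iff]
    rintro z rfl
    exact (h1 i b).symm
  exact (Subgroup.mem_centralizer_iff.1 (hle (Subgroup.mem_top a)) _ rfl).symm

variable {F : Type*} [Field F] {M : ℕ}

local notation "GLn" => GL (Fin (M + 2)) F

/-- Conjugation by a diagonal element, on `SL_m`. -/
def cjS (c : Fˣ) : SL(M + 2, F) →* SL(M + 2, F) where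
  toFun S := slPart (dg 0 c * Matrix.SpecialLinearGroup.toGL S * (dg 0 c)⁻¹)
  map_one' := Matrix.SpecialLinearGroup.toGL_injective (by
    rw [map_one, mul_one, mul_inv_cancel, toGL_slPart, map_one, map_one, inv_one, mul_one])
  map_mul' S S' := Matrix.SpecialLinearGroup.toGL_injective (by
    have hd : ∀ T : SL(M + 2, F), Matrix.GeneralLinearGroup.det
        (dg 0 c * Matrix.SpecialLinearGroup.toGL T * (dg 0 c)⁻¹) = 1 := fun T => by
      rw [map_mul, map_mul, map_inv, det_dg,
        show Matrix.GeneralLinearGroup.det (Matrix.SpecialLinearGroup.toGL T) = 1 from Units.ext T.2,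
        mul_one, mul_inv_cancel]
    rw [map_mul Matrix.SpecialLinearGroup.toGL (slPart _) (slPart _), toGL_slPart, toGL_slPart, toGL_slPart, hd, hd, hd, map_one, inv_one, mul_one, mul_one, mul_one, map_mul]
    group)

theorem toGL_cjS (c : Fˣ) (S : SL(M + 2, F)) :
    Matrix.SpecialLinearGroup.toGL (cjS c S) = dg 0 c * Matrix.SpecialLinearGroup.toGL S * (dg 0 c)⁻¹ := by
  show Matrix.SpecialLinearGroup.toGL (slPart _) = _
  rw [toGL_slPart]
  have : Matrix.GeneralLinearGroup.det
      (dg 0 c * Matrix.SpecialLinearGroup.toGL S * (dg 0 c)⁻¹) = 1 := by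
    rw [map_mul, map_mul, map_inv, det_dg,
      show Matrix.GeneralLinearGroup.det (Matrix.SpecialLinearGroup.toGL S) = 1 from Units.ext S.2,
      mul_one, mul_inv_cancel]
  rw [this, map_one, inv_one, mul_one]

/-- The relations follow from relations on generators. -/
theorem rels_of_gens [Fintype F] {G : Type*} [Group G] (B : SpBase G F M) (g : Fˣ) (hg : ∀ c : Fˣ, c ∈ Subgroup.zpowers g)
    (xS : Fin 2 → SL(M + 2, F)) (hxS : Subgroup.closure (Set.range xS) = ⊤)
    (xB : Fin 2 → SL(M + 1, F)) (hxB : Subgroup.closure (Set.range xB) = ⊤)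
    (y : Fin 2 → SL(2, F)) (hy : Subgroup.closure (Set.range y) = ⊤)
    (hd : ∀ i, B.d g * B.Φ (xS i) * (B.d g)⁻¹ = B.Φ (cjS g (xS i)))
    (hs : ∀ i j, Commute (B.Φ (blockHom (xB i))) (B.L (y j)))
    (hd1 : ∀ j, Commute (B.xi (dg 1 g)) (B.L (y j)))
    (hx : Commute (B.L (rx 0 1 1)) (B.Φ (rx 0 1 1)))
    (h01 : ∀ i j, Commute (B.L (y i)) (B.xi (pm (swap 0 1)) * B.L (y j) * (B.xi (pm (swap 0 1)))⁻¹)) :
    B.Rels := by
  classical
  have hpow : ∀ c : Fˣ, ∃ k : ℕ, g ^ k = c := fun c => Submonoid.mem_powers_iff _ _ |>.1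
    (mem_powers_iff_mem_zpowers.2 (hg c))
  have hg1 : ∀ S, B.d g * B.Φ S * (B.d g)⁻¹ = B.Φ (cjS g S) := by
    have e := MonoidHom.eq_of_eqOn_top (f := (MulAut.conj (B.d g)).toMonoidHom.comp B.Φ) (g := B.Φ.comp (cjS g))
      (by
        rw [← hxS]
        refine MonoidHom.eqOn_closure ?_
        rintro _ ⟨i, rfl⟩
        exact hd i)
    exact fun S => DFunLike.congr_fun e S
  have hall : ∀ (c : Fˣ) (S : SL(M + 2, F)), B.d c * B.Φ S * (B.d c)⁻¹ = B.Φ (cjS c S) := by
    intro c
    obtain ⟨k, rfl⟩ := hpow c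
    induction k with
    | zero =>
      intro S
      rw [pow_zero, map_one, one_mul, inv_one, mul_one]
      congr 1
      exact Matrix.SpecialLinearGroup.toGL_injective (by rw [toGL_cjS, map_one, one_mul, inv_one, mul_one])
    | succ k ih =>
      intro S
      have e : cjS (g ^ (k + 1)) S = cjS (g ^ k) (cjS g S) := Matrix.SpecialLinearGroup.toGL_injective (by
        rw [toGL_cjS, toGL_cjS, toGL_cjS, pow_succ, map_mul, _root_.mul_inv_rev]
        simp only [mul_assoc])
      rw [e, ← ih, ← hg1, pow_succ, map_mul]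
      group
  refine ⟨fun c S S' h => ?_, fun S hS b => ?_, fun c b => ?_, hx, fun a b => ?_⟩
  · rw [hall c S]
    congr 1
    exact Matrix.SpecialLinearGroup.toGL_injective (by rw [toGL_cjS, h])
  · obtain ⟨A, rfl⟩ := exists_blockHom hS
    exact commute_of_gens (B.Φ.comp blockHom) B.L xB y hxB hy hs A b
  · have hmul : ∀ a a' : Fˣ, B.xi (dg 1 (a * a') : GLn) = B.xi (dg 1 a) * B.xi (dg 1 a') := by
      intro a a'
      have hs1 : ∀ a : Fˣ, Matrix.SpecialLinearGroup.toGL (slPart (dg 1 a : GLn)) = dg 1 a * (dg 0 a)⁻¹ := fun a => by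
        rw [toGL_slPart, det_dg]
      have hc : ∀ a b : Fˣ, Commute (dg (1 : Fin (M + 2)) a) (dg (0 : Fin (M + 2)) b) := fun a b => gl_ext fun i => by
        simp only [ap_mul, dg_single, ap_smul, smul_smul, mul_comm]
      have hc0 : ∀ a b : Fˣ, Commute (dg (0 : Fin (M + 2)) a) (dg (0 : Fin (M + 2)) b) := fun a b =>
        (Commute.all a b).map (dg 0)
      have e : slPart (dg 1 (a * a') : GLn) = slPart (dg 1 a) * cjS a (slPart (dg 1 a')) :=
        Matrix.SpecialLinearGroup.toGL_injective (by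
          rw [map_mul Matrix.SpecialLinearGroup.toGL, toGL_cjS, hs1, hs1, hs1, map_mul, map_mul,
            _root_.mul_inv_rev]
          have h1 := (hc a' a).symm.eq
          have h2 := ((hc0 a' a).inv_inv).eq
          have e1 : dg (0 : Fin (M + 2)) a * (dg 1 a' * (dg 0 a')⁻¹) * (dg 0 a)⁻¹ = dg 1 a' * (dg 0 a')⁻¹ := by
            rw [(((hc a' a).symm).mul_right (hc0 a a').inv_right).eq, mul_inv_cancel_right]
          rw [e1, h2]
          have h3 := ((hc a' a).inv_right).eq
          simp only [← mul_assoc]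
          rw [mul_assoc (dg (1 : Fin (M + 2)) a) (dg 1 a'), h3, ← mul_assoc])
      show B.Φ _ * B.d _ = B.Φ _ * B.d _ * (B.Φ _ * B.d _)
      rw [det_dg, det_dg, det_dg, e, map_mul B.Φ, ← hall, map_mul B.d]
      group
    obtain ⟨k, rfl⟩ := hpow c
    induction k with
    | zero =>
      rw [pow_zero, map_one]
      have e : slPart (1 : GLn) = 1 := Matrix.SpecialLinearGroup.toGL_injective (by
        rw [toGL_slPart, map_one, map_one, map_one, inv_one, mul_one])
      rw [SpBase.xi, e, map_one, map_one, map_one, one_mul]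
      exact Commute.one_left _
    | succ k ih =>
      rw [pow_succ, hmul]
      refine ih.mul_left ?_
      have h2 : ∀ z, Commute (B.xi (dg 1 g)) (B.L z) := by
        intro z
        have hle : (⊤ : Subgroup SL(2, F)) ≤ (Subgroup.centralizer {B.xi (dg 1 g)}).comap B.L := by
          rw [← hy, Subgroup.closure_le]
          rintro _ ⟨j, rfl⟩
          rw [SetLike.mem_coe, Subgroup.mem_comap, Subgroup.mem_centralizer_iff]
          rintro w rfl
          exact hd1 j
        exact Subgroup.mem_centralizer_iff.1 (hle (Subgroup.mem_top z)) _ rfl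
      exact h2 b
  · exact commute_of_gens B.L ((MulAut.conj (B.xi (pm (swap 0 1)))).toMonoidHom.comp B.L) y y hy hy h01 a b

/-- The presentation of the symplectic group. -/
theorem sp_pres [Fintype F] {κ κ' : Type} [Fintype κ] [Fintype κ']
    (R : Finset (FreeGroup κ)) (eS : PresentedGroup (↑R : Set (FreeGroup κ)) ≃* SL(M + 2, F))
    (R2 : Finset (FreeGroup κ')) (eL : PresentedGroup (↑R2 : Set (FreeGroup κ')) ≃* SL(2, F))
    (xB : Fin 2 → SL(M + 1, F)) (hxB : Subgroup.closure (Set.range xB) = ⊤) :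
    ∃ R' : Finset (FreeGroup (κ ⊕ κ')), R'.card ≤ R.card + R2.card + 14 ∧
      Nonempty (PresentedGroup (↑R' : Set (FreeGroup (κ ⊕ κ'))) ≃*
        Matrix.symplecticGroup (Fin (M + 2)) F) := by
  classical
  obtain ⟨g, hg⟩ := IsCyclic.exists_generator (α := Fˣ)
  obtain ⟨s1, s2, hS⟩ := exists_two_gen (F := F) M
  obtain ⟨l1, l2, hL⟩ := exists_two_gen (F := F) 0
  let xS : Fin 2 → SL(M + 2, F) := ![s1, s2]
  let y : Fin 2 → SL(2, F) := ![l1, l2]
  have hxS : Subgroup.closure (Set.range xS) = ⊤ := by rwa [Matrix.range_cons_cons_empty]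
  have hy : Subgroup.closure (Set.range y) = ⊤ := by rwa [Matrix.range_cons_cons_empty]
  -- words
  have hπS : Function.Surjective fun w : FreeGroup κ => eS (PresentedGroup.mk _ w) :=
    eS.surjective.comp (PresentedGroup.mk_surjective _)
  have hπL : Function.Surjective fun w : FreeGroup κ' => eL (PresentedGroup.mk _ w) :=
    eL.surjective.comp (PresentedGroup.mk_surjective _)
  let wS : SL(M + 2, F) → FreeGroup (κ ⊕ κ') := fun s => FreeGroup.map Sum.inl (Function.surjInv hπS s)
  let wL : SL(2, F) → FreeGroup (κ ⊕ κ') := fun s => FreeGroup.map Sum.inr (Function.surjInv hπL s)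
  let wd : Fˣ → FreeGroup (κ ⊕ κ') := fun c => wL (torHom c)
  let wxi : GLn → FreeGroup (κ ⊕ κ') := fun A => wS (slPart A) * wd (Matrix.GeneralLinearGroup.det A)
  let com : FreeGroup (κ ⊕ κ') → FreeGroup (κ ⊕ κ') → FreeGroup (κ ⊕ κ') := fun a b => a * b * (b * a)⁻¹
  let p : GLn := pm (swap 0 1)
  let rA : Finset (FreeGroup (κ ⊕ κ')) :=
    Finset.univ.image fun i => wd g * wS (xS i) * (wd g)⁻¹ * (wS (cjS g (xS i)))⁻¹
  let rB : Finset (FreeGroup (κ ⊕ κ')) :=
    (Finset.univ ×ˢ Finset.univ).image fun ij : Fin 2 × Fin 2 => com (wS (blockHom (xB ij.1))) (wL (y ij.2))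
  let rC : Finset (FreeGroup (κ ⊕ κ')) := Finset.univ.image fun j => com (wxi (dg 1 g)) (wL (y j))
  let rD : FreeGroup (κ ⊕ κ') := com (wL (rx 0 1 1)) (wS (rx 0 1 1))
  let rE : Finset (FreeGroup (κ ⊕ κ')) :=
    (Finset.univ ×ˢ Finset.univ).image fun ij : Fin 2 × Fin 2 => com (wL (y ij.1)) (wxi p * wL (y ij.2) * (wxi p)⁻¹)
  let rF : FreeGroup (κ ⊕ κ') :=
    wL H92.sw * wS (rx 1 0 (-1)) * (wL H92.sw)⁻¹ *
      ((wS (rx 1 0 1) * wL (rx 0 1 1) * (wS (rx 1 0 1))⁻¹) * wL (rx 0 1 (-1)) *
        (wxi p * wL (rx 0 1 (-1)) * (wxi p)⁻¹))⁻¹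
  let rG : Finset (FreeGroup (κ ⊕ κ')) := R.image (FreeGroup.map Sum.inl) ∪ R2.image (FreeGroup.map Sum.inr)
  let R' : Finset (FreeGroup (κ ⊕ κ')) := rG ∪ (rA ∪ (rB ∪ (rC ∪ (rE ∪ {rD, rF}))))
  have hcard : R'.card ≤ R.card + R2.card + 14 := by
    have hA : rA.card ≤ 2 := Finset.card_image_le.trans (by simp)
    have hB : rB.card ≤ 4 := Finset.card_image_le.trans (by simp)
    have hC : rC.card ≤ 2 := Finset.card_image_le.trans (by simp)
    have hE : rE.card ≤ 4 := Finset.card_image_le.trans (by simp)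
    have hF : ({rD, rF} : Finset (FreeGroup (κ ⊕ κ'))).card ≤ 2 := Finset.card_le_two
    have hG : rG.card ≤ R.card + R2.card :=
      (Finset.card_union_le _ _).trans (Nat.add_le_add Finset.card_image_le Finset.card_image_le)
    have h5 := Finset.card_union_le rE ({rD, rF} : Finset (FreeGroup (κ ⊕ κ')))
    have h4 := Finset.card_union_le rC (rE ∪ ({rD, rF} : Finset (FreeGroup (κ ⊕ κ'))))
    have h3 := Finset.card_union_le rB (rC ∪ (rE ∪ ({rD, rF} : Finset (FreeGroup (κ ⊕ κ')))))
    have h2 := Finset.card_union_le rA (rB ∪ (rC ∪ (rE ∪ ({rD, rF} : Finset (FreeGroup (κ ⊕ κ'))))))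
    have h1 : R'.card ≤ rG.card + _ := Finset.card_union_le _ _
    omega
  refine ⟨R', hcard, ?_⟩
  -- inside the target
  let fg : κ ⊕ κ' → Matrix.symplecticGroup (Fin (M + 2)) F :=
    Sum.elim (fun i => levS (eS (PresentedGroup.of i))) (fun j => iota 0 (eL (PresentedGroup.of j)))
  have hfl : ∀ w : FreeGroup κ, FreeGroup.lift fg (FreeGroup.map Sum.inl w) = levS (eS (PresentedGroup.mk _ w)) :=
    fun w => DFunLike.congr_fun (FreeGroup.ext_hom ((FreeGroup.lift fg).comp (FreeGroup.map Sum.inl))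
      ((levS.comp eS.toMonoidHom).comp (PresentedGroup.mk _)) fun i => by simp [fg]; rfl) w
  have hfr : ∀ w : FreeGroup κ', FreeGroup.lift fg (FreeGroup.map Sum.inr w) = iota 0 (eL (PresentedGroup.mk _ w)) :=
    fun w => DFunLike.congr_fun (FreeGroup.ext_hom ((FreeGroup.lift fg).comp (FreeGroup.map Sum.inr))
      (((iota 0).comp eL.toMonoidHom).comp (PresentedGroup.mk _)) fun i => by simp [fg]; rfl) w
  have tS : ∀ s, FreeGroup.lift fg (wS s) = (tgt F M).Φ s := fun s => by
    simp only [wS, hfl]; exact congrArg levS (Function.surjInv_eq hπS s)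
  have tL : ∀ s, FreeGroup.lift fg (wL s) = (tgt F M).L s := fun s => by
    simp only [wL, hfr]; exact congrArg (iota 0) (Function.surjInv_eq hπL s)
  have txi : ∀ A, FreeGroup.lift fg (wxi A) = (tgt F M).xi A := fun A => by
    simp only [wxi, wd, map_mul, tS, tL]; rfl
  have hR0 := tgt_rels (F := F) (M := M)
  have tcom : ∀ a b, Commute (FreeGroup.lift fg a) (FreeGroup.lift fg b) → FreeGroup.lift fg (com a b) = 1 :=
    fun a b h => by simp only [com, map_mul, map_inv]; rw [h.eq, mul_inv_cancel]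
  have hA : ∀ r ∈ (↑R' : Set (FreeGroup (κ ⊕ κ'))), FreeGroup.lift fg r = 1 := by
    intro r hr
    simp only [R', rG, rA, rB, rC, rE, Finset.coe_union, Finset.coe_image, Finset.coe_insert, Finset.coe_singleton,
      Set.mem_union, Set.mem_image, Finset.mem_coe, Finset.mem_univ, Finset.mem_product, and_self, true_and,
      Set.mem_insert_iff, Set.mem_singleton_iff] at hr
    rcases hr with (⟨x, hx, rfl⟩ | ⟨x, hx, rfl⟩) | ⟨i, rfl⟩ | ⟨ij, rfl⟩ | ⟨j, rfl⟩ | ⟨ij, rfl⟩ | rfl | rfl
    · rw [hfl, PresentedGroup.one_of_mem (Finset.mem_coe.2 hx), map_one, map_one]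
    · rw [hfr, PresentedGroup.one_of_mem (Finset.mem_coe.2 hx), map_one, map_one]
    · simp only [map_mul, map_inv, wd, tS, tL]
      rw [mul_inv_eq_one]
      exact hR0.hd g _ _ (toGL_cjS g _)
    · refine tcom _ _ ?_
      rw [tS, tL]
      exact hR0.hs _ (blk_blockHom _) _
    · refine tcom _ _ ?_
      rw [txi, tL]
      exact hR0.hd1 _ _
    · refine tcom _ _ ?_
      rw [map_mul, map_mul, map_inv, txi, tL, tL]
      exact hR0.h01 _ _
    · refine tcom _ _ ?_
      rw [tS, tL]
      exact hR0.hx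
    · simp only [rF, map_mul, map_inv, tS, tL, txi]
      rw [mul_inv_eq_one]
      exact tgt_mix
  let f : PresentedGroup (↑R' : Set (FreeGroup (κ ⊕ κ'))) →* Matrix.symplecticGroup (Fin (M + 2)) F :=
    PresentedGroup.toGroup hA
  -- inside the presented group
  let mk := PresentedGroup.mk (↑R' : Set (FreeGroup (κ ⊕ κ')))
  have hBS : ∀ r ∈ (↑R : Set (FreeGroup κ)),
      FreeGroup.lift (fun i => mk (FreeGroup.of (Sum.inl i))) r = 1 := by
    intro r hr
    rw [show FreeGroup.lift (fun i => mk (FreeGroup.of (Sum.inl i))) r = mk (FreeGroup.map Sum.inl r) from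
      DFunLike.congr_fun (FreeGroup.ext_hom (FreeGroup.lift fun i => mk (FreeGroup.of (Sum.inl i)))
        (mk.comp (FreeGroup.map Sum.inl)) fun i => by simp) r]
    exact PresentedGroup.one_of_mem (Finset.mem_coe.2 (Finset.mem_union_left _ (Finset.mem_union_left _
      (Finset.mem_image_of_mem _ (Finset.mem_coe.1 hr)))))
  have hBL : ∀ r ∈ (↑R2 : Set (FreeGroup κ')),
      FreeGroup.lift (fun i => mk (FreeGroup.of (Sum.inr i))) r = 1 := by
    intro r hr
    rw [show FreeGroup.lift (fun i => mk (FreeGroup.of (Sum.inr i))) r = mk (FreeGroup.map Sum.inr r) from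
      DFunLike.congr_fun (FreeGroup.ext_hom (FreeGroup.lift fun i => mk (FreeGroup.of (Sum.inr i)))
        (mk.comp (FreeGroup.map Sum.inr)) fun i => by simp) r]
    exact PresentedGroup.one_of_mem (Finset.mem_coe.2 (Finset.mem_union_left _ (Finset.mem_union_right _
      (Finset.mem_image_of_mem _ (Finset.mem_coe.1 hr)))))
  let B : SpBase (PresentedGroup (↑R' : Set (FreeGroup (κ ⊕ κ')))) F M :=
    ⟨(PresentedGroup.toGroup hBS).comp eS.symm.toMonoidHom, (PresentedGroup.toGroup hBL).comp eL.symm.toMonoidHom⟩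
  have gS : ∀ w, B.Φ (eS (PresentedGroup.mk _ w)) = mk (FreeGroup.map Sum.inl w) := fun w => by
    show PresentedGroup.toGroup hBS (eS.symm (eS _)) = _
    rw [MulEquiv.symm_apply_apply]
    exact DFunLike.congr_fun (FreeGroup.ext_hom (FreeGroup.lift fun i => mk (FreeGroup.of (Sum.inl i)))
        (mk.comp (FreeGroup.map Sum.inl)) fun i => by simp) w
  have gL : ∀ w, B.L (eL (PresentedGroup.mk _ w)) = mk (FreeGroup.map Sum.inr w) := fun w => by
    show PresentedGroup.toGroup hBL (eL.symm (eL _)) = _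
    rw [MulEquiv.symm_apply_apply]
    exact DFunLike.congr_fun (FreeGroup.ext_hom (FreeGroup.lift fun i => mk (FreeGroup.of (Sum.inr i)))
        (mk.comp (FreeGroup.map Sum.inr)) fun i => by simp) w
  have mS : ∀ s, mk (wS s) = B.Φ s := fun s => by
    conv_rhs => rw [← Function.surjInv_eq hπS s]
    exact (gS _).symm
  have mL : ∀ s, mk (wL s) = B.L s := fun s => by
    conv_rhs => rw [← Function.surjInv_eq hπL s]
    exact (gL _).symm
  have mxi : ∀ A, mk (wxi A) = B.xi A := fun A => by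
    simp only [wxi, wd, map_mul, mS, mL]; rfl
  have hrel : ∀ r ∈ R', mk r = 1 := fun r hr => PresentedGroup.one_of_mem (Finset.mem_coe.2 hr)
  have mcom : ∀ a b, mk (com a b) = 1 → Commute (mk a) (mk b) := fun a b h => by
    simp only [com, map_mul, map_inv] at h
    exact mul_inv_eq_one.1 h
  have hRels : B.Rels := by
    refine rels_of_gens B g hg xS hxS xB hxB y hy (fun i => ?_) (fun i j => ?_) (fun j => ?_) ?_ (fun i j => ?_)
    · have := hrel _ (Finset.mem_union_right rG (Finset.mem_union_left _ (Finset.mem_image_of_mem _ (Finset.mem_univ i))))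
      simp only [map_mul, map_inv, wd, mS, mL] at this
      exact mul_inv_eq_one.1 this
    · have := mcom _ _ (hrel _ (Finset.mem_union_right rG (Finset.mem_union_right rA (Finset.mem_union_left _
        (Finset.mem_image_of_mem _ (Finset.mk_mem_product (Finset.mem_univ i) (Finset.mem_univ j)))))))
      rwa [mS, mL] at this
    · have := mcom _ _ (hrel _ (Finset.mem_union_right rG (Finset.mem_union_right rA (Finset.mem_union_right rB
        (Finset.mem_union_left _ (Finset.mem_image_of_mem _ (Finset.mem_univ j)))))))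
      rwa [mxi, mL] at this
    · have := mcom _ _ (hrel rD (by simp [R']))
      rwa [mS, mL] at this
    · have := mcom _ _ (hrel _ (Finset.mem_union_right rG (Finset.mem_union_right rA (Finset.mem_union_right rB
        (Finset.mem_union_right rC (Finset.mem_union_left _
          (Finset.mem_image_of_mem _ (Finset.mk_mem_product (Finset.mem_univ i) (Finset.mem_univ j)))))))))
      rwa [map_mul, map_mul, map_inv, mxi, mL, mL] at this
  have hMix : B.Mix := by
    have := hrel rF (by simp [R'])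
    simp only [rF, map_mul, map_inv, mS, mL, mxi] at this
    exact mul_inv_eq_one.1 this
  have hfS : ∀ S : SL(M + 2, F), f (B.Φ S) = levS S := fun S => by
    rw [← mS]; exact tS S
  have hfL : ∀ s : SL(2, F), f (B.L s) = iota (0 : Fin (M + 2)) s := fun s => by
    rw [← mL]; exact tL s
  have hgen : Subgroup.closure (Set.range B.Φ ∪ Set.range B.L) = ⊤ := by
    rw [eq_top_iff, ← PresentedGroup.closure_range_of, Subgroup.closure_le]
    rintro _ ⟨i | j, rfl⟩
    · exact Subgroup.subset_closure (Or.inl ⟨_, (gS (FreeGroup.of i)).trans (by simp [mk]; rfl)⟩)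
    · exact Subgroup.subset_closure (Or.inr ⟨_, (gL (FreeGroup.of j)).trans (by simp [mk]; rfl)⟩)
  exact ⟨MulEquiv.ofBijective f (SpBase.bijective hRels hMix f hfS hfL hgen)⟩

end Cfsg.Agent.H81.SpPres
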