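import Cfsg.Agent.H81.SpPres.GLTools
import Cfsg.Agent.H81.SLnPres.Roots
import Cfsg.Agent.H81.SLnPres.Image
import Cfsg.Agent.H81.SLPresField

/-!
# The Siegel parabolic inside a group glued from `SL_m` and `SL₂`
-/

set_option autoImplicit false

namespace Cfsg.Agent.H81.SpPres

open Equiv Matrix Cfsg.Agent.H64.SLCover Cfsg.Agent.H81.SLnPres
open scoped MatrixGroups

variable {G : Type*} [Group G] {F : Type*} [Field F] {M : ℕ}

/-- Squares span the field additively. -/
theorem sq_ind [Fintype F] (Q : F → Prop) (h0 : Q 0) (hadd : ∀ s t, Q s → Q t → Q (s + t))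
    (hsq : ∀ a : F, a ≠ 0 → Q (a ^ 2)) (t : F) : Q t := by
  classical
  obtain ⟨p, hpF⟩ := CharP.exists F
  haveI : Fact p.Prime := ⟨CharP.char_is_prime F p⟩
  letI : Algebra (ZMod p) F := ZMod.algebra F p
  obtain ⟨a, ha0, -, hord⟩ := Cfsg.Agent.H81.SLPres.exists_gen (F := F)
  refine Cfsg.Agent.H81.SLnPres.ind_b (p := p) (Cfsg.Agent.H81.SLPres.gen_sq (p := p) a hord) Q h0 hadd
    (fun i => ?_) t
  rw [← pow_mul, mul_comm, pow_mul]
  exact hsq _ (pow_ne_zero _ ha0)

/-- The torus of `SL₂`. -/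
def torHom : Fˣ →* SL(2, F) where
  toFun c := tor 0 1 c
  map_one' := eq_of_monoAt' (F := F) id (fun _ => (1 : F))
    (fun a => by have h := tor_monoAt (F := F) (0 : Fin 2) 1 1 a; simpa [dd] using h)
    (fun a => by show (1 : SL(2, F)) • _ = _; rw [one_smul, one_smul]; rfl)
  map_mul' c d := eq_of_monoAt' (F := F) id (fun a => dd 0 1 (c * d) a)
    (fun a => tor_monoAt 0 1 (c * d) a)
    (fun a => by
      have h := (tor_monoAt (0 : Fin 2) 1 d a).mul (tor_monoAt 0 1 c a)
      have e : dd (0 : Fin 2) 1 d a * dd 0 1 c a = dd 0 1 (c * d) a := by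
        fin_cases a <;> simp [dd, mul_comm]
      rwa [e] at h)

/-- The two homomorphisms to be glued. -/
structure SpBase (G : Type*) [Group G] (F : Type*) [Field F] (M : ℕ) where
  /-- the special linear Levi subgroup -/
  Φ : Matrix.SpecialLinearGroup (Fin (M + 2)) F →* G
  /-- the long root `SL₂` -/
  L : SL(2, F) →* G

local notation "GLn" => GL (Fin (M + 2)) F
local notation "Vn" => (Fin (M + 2) → F)

/-- The standard basis. -/
def ev (i : Fin (M + 2)) : Fin (M + 2) → F := Pi.single i 1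

/-- The determinant-one part of an element of `GL_m`. -/
def slPart (A : GLn) : Matrix.SpecialLinearGroup (Fin (M + 2)) F :=
  ⟨((A * (dg 0 (Matrix.GeneralLinearGroup.det A))⁻¹ : GLn) : Matrix (Fin (M + 2)) (Fin (M + 2)) F), by
    have : Matrix.GeneralLinearGroup.det (A * (dg 0 (Matrix.GeneralLinearGroup.det A))⁻¹) = 1 := by
      rw [map_mul, map_inv, det_dg, mul_inv_cancel]
    exact congrArg Units.val this⟩

theorem toGL_slPart (A : GLn) :
    Matrix.SpecialLinearGroup.toGL (slPart A) = A * (dg 0 (Matrix.GeneralLinearGroup.det A))⁻¹ :=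
  Units.ext rfl

/-- Elements of `GL_m` respecting the splitting at the first coordinate. -/
def Blk (A : GLn) : Prop := ap A (ev 0) = ev 0 ∧ ∀ a, a ≠ 0 → ap A (ev a) 0 = 0

namespace SpBase

variable (B : SpBase G F M)

/-- The torus element at the first coordinate. -/
def d : Fˣ →* G := B.L.comp torHom

/-- The Levi homomorphism on elements. -/
def xi (A : GLn) : G := B.Φ (slPart A) * B.d (Matrix.GeneralLinearGroup.det A)

/-- The relations. -/
structure Rels : Prop where
  hd : ∀ (c : Fˣ) (S S' : Matrix.SpecialLinearGroup (Fin (M + 2)) F),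
    Matrix.SpecialLinearGroup.toGL S' = dg 0 c * Matrix.SpecialLinearGroup.toGL S * (dg 0 c)⁻¹ →
    B.d c * B.Φ S * (B.d c)⁻¹ = B.Φ S'
  hs : ∀ S : Matrix.SpecialLinearGroup (Fin (M + 2)) F, Blk (Matrix.SpecialLinearGroup.toGL S) →
    ∀ y, Commute (B.Φ S) (B.L y)
  hd1 : ∀ (c : Fˣ) y, Commute (B.xi (dg 1 c)) (B.L y)
  hx : Commute (B.L (rx 0 1 1)) (B.Φ (rx 0 1 1))
  h01 : ∀ a b, Commute (B.L a) (B.xi (pm (swap 0 1)) * B.L b * (B.xi (pm (swap 0 1)))⁻¹)

variable {B} (R : B.Rels)

include R

/-- The Levi homomorphism. -/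
def Xi : GLn →* G where
  toFun := B.xi
  map_one' := by
    have e : slPart (1 : GLn) = 1 := Matrix.SpecialLinearGroup.toGL_injective (by
      rw [toGL_slPart, map_one, map_one, map_one, inv_one, mul_one])
    simp [SpBase.xi, e]
  map_mul' A A' := by
    let a := Matrix.GeneralLinearGroup.det A
    let a' := Matrix.GeneralLinearGroup.det A'
    let S' : Matrix.SpecialLinearGroup (Fin (M + 2)) F :=
      ⟨((dg 0 a * Matrix.SpecialLinearGroup.toGL (slPart A') * (dg 0 a)⁻¹ : GLn) :
        Matrix (Fin (M + 2)) (Fin (M + 2)) F), by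
        have : Matrix.GeneralLinearGroup.det
            (dg 0 a * Matrix.SpecialLinearGroup.toGL (slPart A') * (dg 0 a)⁻¹) = 1 := by
          rw [toGL_slPart, map_mul, map_mul, map_inv, map_mul, map_inv, det_dg, det_dg, mul_inv_cancel,
            mul_one, mul_inv_cancel]
        exact congrArg Units.val this⟩
    have hS' : Matrix.SpecialLinearGroup.toGL S' =
        dg 0 a * Matrix.SpecialLinearGroup.toGL (slPart A') * (dg 0 a)⁻¹ := Units.ext rfl
    have e : slPart (A * A') = slPart A * S' := Matrix.SpecialLinearGroup.toGL_injective (by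
      rw [toGL_slPart, map_mul Matrix.SpecialLinearGroup.toGL, hS', toGL_slPart, toGL_slPart,
        map_mul Matrix.GeneralLinearGroup.det, map_mul (dg 0)]
      simp only [a, mul_assoc, _root_.mul_inv_rev, inv_mul_cancel_left])
    show B.Φ (slPart (A * A')) * B.d (Matrix.GeneralLinearGroup.det (A * A')) =
      B.Φ (slPart A) * B.d a * (B.Φ (slPart A') * B.d a')
    rw [e, map_mul B.Φ, map_mul Matrix.GeneralLinearGroup.det, map_mul B.d, ← R.hd a _ S' hS']
    simp only [a, a']
    group

theorem Xi_toGL (S : Matrix.SpecialLinearGroup (Fin (M + 2)) F) :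
    Xi R (Matrix.SpecialLinearGroup.toGL S) = B.Φ S := by
  have h1 : Matrix.GeneralLinearGroup.det (Matrix.SpecialLinearGroup.toGL S) = 1 := Units.ext S.2
  have e : slPart (Matrix.SpecialLinearGroup.toGL S) = S := Matrix.SpecialLinearGroup.toGL_injective (by
    rw [toGL_slPart, h1, map_one, inv_one, mul_one])
  show B.Φ _ * B.d _ = _
  rw [e, h1, map_one, mul_one]

theorem Xi_xg (i j : Fin (M + 2)) (t : F) : Xi R (xg i j t) = B.Φ (rx i j t) := Xi_toGL R _

theorem Xi_dg0 (c : Fˣ) : Xi R (dg 0 c) = B.d c := by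
  have e : slPart (dg 0 c : GLn) = 1 := Matrix.SpecialLinearGroup.toGL_injective (by
    rw [toGL_slPart, det_dg, mul_inv_cancel, map_one])
  show B.Φ _ * B.d _ = _
  rw [e, det_dg, map_one, one_mul]

theorem blk_commute {A : GLn} (hA : Blk A) (y : SL(2, F)) : Commute (Xi R A) (B.L y) := by
  set c := Matrix.GeneralLinearGroup.det A
  let A1 : GLn := A * (dg 1 c)⁻¹
  have hdet : Matrix.GeneralLinearGroup.det A1 = 1 := by
    rw [map_mul, map_inv, det_dg, mul_inv_cancel]
  let S : Matrix.SpecialLinearGroup (Fin (M + 2)) F :=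
    ⟨(A1 : Matrix (Fin (M + 2)) (Fin (M + 2)) F), congrArg Units.val hdet⟩
  have hS : Matrix.SpecialLinearGroup.toGL S = A1 := Units.ext rfl
  have h01 : (0 : Fin (M + 2)) ≠ 1 := by simp
  have hblk : Blk A1 := by
    constructor
    · show ap (A * (dg 1 c)⁻¹) (ev 0) = ev 0
      rw [ap_mul, ← map_inv, ev, dg_single, if_neg h01, one_smul]
      exact hA.1
    · intro a ha
      show ap (A * (dg 1 c)⁻¹) (ev a) 0 = 0
      rw [ap_mul, ← map_inv, ev, dg_single, ap_smul, Pi.smul_apply]
      have := hA.2 a ha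
      rw [ev] at this
      rw [this, smul_zero]
  have hc : Xi R A = B.Φ S * Xi R (dg 1 c) := by
    rw [← Xi_toGL R, hS, ← map_mul, inv_mul_cancel_right]
  rw [hc]
  exact (R.hs S (hS ▸ hblk) y).mul_left (R.hd1 c y)

omit R in
/-- The upper long root element at the first coordinate. -/
def u (B : SpBase G F M) (t : F) : G := B.L (rx 0 1 t)

theorem u_add (s t : F) : B.u (s + t) = B.u s * B.u t := by
  rw [u, rx_add, map_mul]; rfl

theorem u_zero : B.u 0 = 1 := by rw [u, rx_zero, map_one]

theorem d_u (c : Fˣ) (t : F) : B.d c * B.u t * (B.d c)⁻¹ = B.u ((c : F) ^ 2 * t) := by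
  show B.L (tor 0 1 c) * B.L (rx 0 1 t) * (B.L (tor 0 1 c))⁻¹ = B.L (rx 0 1 _)
  rw [← map_inv, ← map_mul, ← map_mul, tor_rx]
  congr 2
  simp [dd, pow_two]

theorem u_xg01 [Fintype F] (c t : F) : Commute (B.u t) (Xi R (xg (0 : Fin (M + 2)) 1 c)) := by
  have h01 : (0 : Fin (M + 2)) ≠ 1 := by simp
  rcases eq_or_ne c 0 with rfl | hc
  · rw [xg_zero, map_one]; exact Commute.one_right _
  have h1 : ∀ c : F, c ≠ 0 → Commute (B.u 1) (Xi R (xg (0 : Fin (M + 2)) 1 c)) := by
    intro c hc
    have hb : Commute (Xi R (dg 1 (Units.mk0 c hc)⁻¹)) (B.u 1) := R.hd1 _ _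
    have h : Commute (B.u 1) (Xi R (xg (0 : Fin (M + 2)) 1 1)) := by
      rw [Xi_xg R]; exact R.hx
    have := (Commute.conj_iff (Xi R (dg 1 (Units.mk0 c hc)⁻¹))).2 h
    rw [hb.eq, mul_inv_cancel_right, ← map_inv, ← map_mul, ← map_mul, dg_xg _ _ h01] at this
    simpa [h01] using this
  induction t using sq_ind with
  | h0 => rw [u_zero R]; exact Commute.one_left _
  | hadd s t hs ht => rw [u_add R]; exact hs.mul_left ht
  | hsq a ha =>
    have := (Commute.conj_iff (B.d (Units.mk0 a ha))).2 (h1 (c / a) (div_ne_zero hc ha))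
    rw [d_u R, mul_one, ← Xi_dg0 R, ← map_inv, ← map_mul, ← map_mul, dg_xg _ _ h01] at this
    simp only [Units.val_mk0, if_pos, h01.symm, if_false, div_one] at this
    rwa [mul_div_cancel₀ _ ha] at this

/-- The stabiliser of the first basis vector fixes `u`. -/
theorem stab_u [Fintype F] {A : GLn} (hA : ap A (ev 0) = ev 0) (t : F) : Commute (Xi R A) (B.u t) := by
  classical
  have h01 : (0 : Fin (M + 2)) ≠ 1 := by simp
  have hx : ∀ (j : Fin (M + 2)) (c : F), j ≠ 0 → Commute (B.u t) (Xi R (xg 0 j c)) := by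
    intro j c hj
    have hb : Blk (pm (swap 1 j) : GLn) := by
      refine ⟨?_, fun a ha => ?_⟩
      · rw [ev, pm_single, swap_apply_of_ne_of_ne h01 hj.symm]
      · have hne : swap 1 j a ≠ 0 := by
          intro h
          apply ha
          have := congrArg (swap 1 j) h
          rwa [swap_apply_self, swap_apply_of_ne_of_ne h01 hj.symm] at this
        rw [ev, pm_single, Pi.single_apply, if_neg hne.symm]
    have := (Commute.conj_iff (Xi R (pm (swap 1 j)))).2 (u_xg01 R c t)
    have hbu : Xi R (pm (swap 1 j)) * B.u t = B.u t * Xi R (pm (swap 1 j)) := blk_commute R hb _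
    rw [hbu, mul_inv_cancel_right, ← map_inv,
      ← map_mul, ← map_mul, pm_xg _ h01, swap_apply_of_ne_of_ne h01 hj.symm, swap_apply_left] at this
    exact this
  suffices h : ∀ (s : Finset (Fin (M + 2))) (A : GLn), ap A (ev 0) = ev 0 →
      (∀ a, a ≠ 0 → a ∉ s → ap A (ev a) 0 = 0) → Commute (Xi R A) (B.u t) from
    h Finset.univ A hA (fun a _ h => absurd (Finset.mem_univ a) h)
  intro s
  induction s using Finset.induction_on with
  | empty => exact fun A h0 hrow => blk_commute R ⟨h0, fun a ha => hrow a ha (Finset.notMem_empty _)⟩ _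
  | @insert j s hjs ih =>
    intro A h0 hrow
    by_cases hj : j = 0
    · exact ih A h0 fun a ha has => hrow a ha (by simp [hj, ha, has])
    let c := ap A (ev j) 0
    have hA' : Commute (Xi R (A * xg 0 j (-c))) (B.u t) := by
      refine ih _ ?_ ?_
      · rw [ap_mul, ev, xg_single (Ne.symm hj), if_neg (Ne.symm hj)]; exact h0
      · intro a ha has
        rw [ap_mul, ev, xg_single (Ne.symm hj)]
        by_cases haj : a = j
        · subst haj
          rw [if_pos rfl, ap_add, ap_smul, Pi.add_apply, Pi.smul_apply]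
          show c + -c • ap A (ev 0) 0 = 0
          rw [h0]
          simp [ev]
        · rw [if_neg haj]; exact hrow a ha (by simp [haj, has])
    have e : A = A * xg 0 j (-c) * xg 0 j c := by
      rw [mul_assoc, ← xg_add, neg_add_cancel, xg_zero, mul_one]
    rw [e, map_mul]
    exact hA'.mul_left (hx j c hj).symm

omit R in
/-- The representative element of a nonzero vector. -/
noncomputable def rep (v : Vn) : GLn := by
  classical exact if hv : v ≠ 0 then Classical.choose (exists_first (0 : Fin (M + 2)) hv) else 1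

omit R in
theorem rep_spec {v : Vn} (hv : v ≠ 0) : ap (rep v) (ev 0) = v := by
  rw [rep, dif_pos hv]
  exact Classical.choose_spec (exists_first (0 : Fin (M + 2)) hv)

/-- The long root element of a vector. -/
noncomputable def T (v : Vn) (t : F) : G := by
  classical exact if v = 0 then 1 else Xi R (rep v) * B.u t * (Xi R (rep v))⁻¹

variable [Fintype F]

theorem T_eq (A : GLn) (t : F) : T R (ap A (ev 0)) t = Xi R A * B.u t * (Xi R A)⁻¹ := by
  have hv : ap A (ev 0) ≠ 0 := by
    intro h
    have := congrArg (ap A⁻¹) h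
    rw [← ap_mul, inv_mul_cancel, ap_one] at this
    have h2 := congrFun this 0
    simp [ev, ap] at h2
  rw [T, if_neg hv]
  set R0 := rep (ap A (ev 0))
  have hst : ap (A⁻¹ * R0) (ev 0) = ev 0 := by
    rw [ap_mul, rep_spec hv, ← ap_mul, inv_mul_cancel, ap_one]
  calc Xi R R0 * B.u t * (Xi R R0)⁻¹
      = Xi R A * (Xi R (A⁻¹ * R0) * B.u t * (Xi R (A⁻¹ * R0))⁻¹) * (Xi R A)⁻¹ := by
        rw [map_mul, map_inv]; group
    _ = _ := by rw [(stab_u R hst t).eq, mul_inv_cancel_right]

theorem T_conj (A : GLn) (v : Vn) (t : F) :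
    Xi R A * T R v t * (Xi R A)⁻¹ = T R (ap A v) t := by
  rcases eq_or_ne v 0 with rfl | hv
  · have h0 : ap A (0 : Vn) = 0 := Matrix.mulVec_zero _
    simp [T, h0]
  · conv_rhs => rw [← rep_spec hv, ← ap_mul, T_eq R, map_mul]
    rw [T, if_neg hv]
    group

theorem T_add (v : Vn) (s t : F) : T R v (s + t) = T R v s * T R v t := by
  simp only [T]
  split_ifs
  · simp
  · rw [u_add R]; group

theorem T_zero (v : Vn) : T R v 0 = 1 := by
  simp only [T]
  split_ifs
  · rfl
  · rw [u_zero R]; group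

theorem T_smul (c : F) (v : Vn) (t : F) : T R (c • v) t = T R v (c ^ 2 * t) := by
  rcases eq_or_ne c 0 with rfl | hc
  · rw [zero_smul, zero_pow two_ne_zero, zero_mul, T_zero R, T, if_pos rfl]
  rcases eq_or_ne v 0 with rfl | hv
  · simp [T]
  have e : ap (rep v * dg 0 (Units.mk0 c hc)) (ev 0) = c • v := by
    rw [ap_mul, ev, dg_single, if_pos rfl, ap_smul]
    show c • ap (rep v) (ev 0) = _
    rw [rep_spec hv]
  rw [← e, T_eq R, map_mul, Xi_dg0 R, T, if_neg hv]
  have := d_u R (Units.mk0 c hc) t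
  rw [Units.val_mk0] at this
  rw [← this]
  group

theorem T_neg (v : Vn) (t : F) : T R v (-t) = (T R v t)⁻¹ := by
  rw [← mul_eq_one_iff_eq_inv, ← T_add R, neg_add_cancel, T_zero R]

/-- All long root elements of the upper unipotent radical commute. -/
theorem T_comm (v w : Vn) (s t : F) : Commute (T R v s) (T R w t) := by
  rcases eq_or_ne v 0 with rfl | hv
  · simp [T]
  by_cases hw : ∃ c : F, c • v = w
  · obtain ⟨c, rfl⟩ := hw
    rw [T_smul R]
    show _ * _ = _ * _
    rw [← T_add R, ← T_add R, add_comm]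
  push Not at hw
  obtain ⟨A, hA0, hA1⟩ := exists_second (show (0 : Fin (M + 2)) ≠ 1 by simp) v w hv hw
  rw [← hA0, ← hA1, ← T_conj R, ← T_conj R]
  refine (Commute.conj_iff _).2 ?_
  have e : (Pi.single 0 1 : Vn) = ap (1 : GLn) (ev 0) := (ap_one _).symm
  rw [e, T_eq R, show (Pi.single 1 1 : Vn) = ap (pm (swap 0 1) : GLn) (ev 0) by
    rw [ev, pm_single, swap_apply_left], T_eq R, map_one, one_mul, inv_one, mul_one]
  exact R.h01 _ _

end SpBase

end Cfsg.Agent.H81.SpPres
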