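import Cfsg.Agent.H64.SLCover.Root

/-!
# Elementary elements of `GL_n`
-/

set_option autoImplicit false

namespace Cfsg.Agent.H81.SpPres

open Equiv Matrix Cfsg.Agent.H64.SLCover

variable {n : ℕ} {F : Type*} [Field F]

local notation "GLn" => GL (Fin n) F
local notation "Vn" => (Fin n → F)

/-- The action of an element of `GL_n` on vectors. -/
def ap (A : GLn) (v : Vn) : Vn := (A : Matrix (Fin n) (Fin n) F) *ᵥ v

@[simp] theorem ap_add (A : GLn) (v w : Vn) : ap A (v + w) = ap A v + ap A w := Matrix.mulVec_add _ _ _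

@[simp] theorem ap_smul (A : GLn) (c : F) (v : Vn) : ap A (c • v) = c • ap A v := Matrix.mulVec_smul _ _ _

@[simp] theorem ap_neg (A : GLn) (v : Vn) : ap A (-v) = -ap A v := Matrix.mulVec_neg _ _

@[simp] theorem ap_one (v : Vn) : ap (1 : GLn) v = v := Matrix.one_mulVec v

theorem ap_mul (A B : GLn) (v : Vn) : ap (A * B) v = ap A (ap B v) := by
  show _ = _ *ᵥ (_ *ᵥ v)
  rw [Matrix.mulVec_mulVec]; rfl

theorem gl_ext {A B : GLn} (h : ∀ a, ap A (Pi.single a 1) = ap B (Pi.single a 1)) : A = B :=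
  Units.ext (Matrix.ext_of_mulVec_single h)

/-- A permutation matrix. -/
def pm (σ : Perm (Fin n)) : GLn where
  val := σ⁻¹.permMatrix F
  inv := σ.permMatrix F
  val_inv := by rw [← Matrix.permMatrix_mul, mul_inv_cancel, Matrix.permMatrix_one]
  inv_val := by rw [← Matrix.permMatrix_mul, inv_mul_cancel, Matrix.permMatrix_one]

@[simp] theorem pm_single (σ : Perm (Fin n)) (a : Fin n) :
    ap (pm σ : GLn) (Pi.single a 1) = Pi.single (σ a) 1 := by
  show Matrix.mulVec (σ⁻¹.permMatrix F) (Pi.single a (1 : F)) = _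
  rw [Matrix.permMatrix_mulVec]
  funext x
  simp only [Function.comp_apply, Pi.single_apply, Perm.inv_def, Equiv.symm_apply_eq]

theorem pm_mul (σ τ : Perm (Fin n)) : (pm (σ * τ) : GLn) = pm σ * pm τ :=
  gl_ext fun a => by rw [ap_mul, pm_single, pm_single, pm_single]; rfl

theorem pm_inv (σ : Perm (Fin n)) : (pm σ : GLn)⁻¹ = pm σ⁻¹ := by
  refine inv_eq_of_mul_eq_one_right ?_
  rw [← pm_mul, mul_inv_cancel]
  exact gl_ext fun a => by simp

/-- The diagonal element with `c` at `i`. -/
def dg (i : Fin n) : Fˣ →* GLn where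
  toFun c :=
    { val := Matrix.diagonal fun a => if a = i then (c : F) else 1
      inv := Matrix.diagonal fun a => if a = i then ((c⁻¹ : Fˣ) : F) else 1
      val_inv := by
        rw [Matrix.diagonal_mul_diagonal, ← Matrix.diagonal_one]; congr 1; funext a; split_ifs <;> simp
      inv_val := by
        rw [Matrix.diagonal_mul_diagonal, ← Matrix.diagonal_one]; congr 1; funext a; split_ifs <;> simp }
  map_one' := Units.ext (by simp)
  map_mul' c d := Units.ext (by
    refine Eq.trans ?_ (Matrix.diagonal_mul_diagonal _ _).symm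
    refine congrArg Matrix.diagonal (funext fun a => ?_)
    split_ifs <;> simp)

@[simp] theorem dg_single (i : Fin n) (c : Fˣ) (a : Fin n) :
    ap (dg i c : GLn) (Pi.single a 1) = (if a = i then (c : F) else 1) • (Pi.single a 1 : Vn) := by
  show Matrix.mulVec (Matrix.diagonal _) (Pi.single a (1 : F)) = _
  rw [Matrix.diagonal_mulVec_single, mul_one, ← Pi.single_smul', smul_eq_mul, mul_one]

/-- A transvection in `GL_n`. -/
def xg (i j : Fin n) (t : F) : GLn := Matrix.SpecialLinearGroup.toGL (rx i j t)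

theorem xg_single {i j : Fin n} (h : i ≠ j) (t : F) (a : Fin n) :
    ap (xg i j t : GLn) (Pi.single a 1) =
      if a = j then Pi.single j 1 + t • (Pi.single i 1 : Vn) else Pi.single a 1 :=
  rx_smul_single h t a

theorem xg_add (i j : Fin n) (s t : F) : (xg i j (s + t) : GLn) = xg i j s * xg i j t := by
  rw [xg, rx_add, map_mul]; rfl

@[simp] theorem xg_zero (i j : Fin n) : (xg i j 0 : GLn) = 1 := by rw [xg, rx_zero, map_one]

theorem xg_inv (i j : Fin n) (t : F) : (xg i j t : GLn)⁻¹ = xg i j (-t) := by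
  rw [xg, ← map_inv, rx_inv]; rfl

theorem det_xg (i j : Fin n) (t : F) : Matrix.GeneralLinearGroup.det (xg i j t : GLn) = 1 :=
  Units.ext (rx i j t).2

theorem det_dg (i : Fin n) (c : Fˣ) : Matrix.GeneralLinearGroup.det (dg i c : GLn) = c := by
  apply Units.ext
  show Matrix.det (Matrix.diagonal fun a => if a = i then (c : F) else 1) = _
  rw [Matrix.det_diagonal, Finset.prod_ite_eq' Finset.univ i]
  simp

theorem pm_xg (σ : Perm (Fin n)) {i j : Fin n} (h : i ≠ j) (t : F) :
    (pm σ : GLn) * xg i j t * (pm σ)⁻¹ = xg (σ i) (σ j) t := by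
  rw [mul_inv_eq_iff_eq_mul]
  refine gl_ext fun a => ?_
  rw [ap_mul, ap_mul, xg_single h, pm_single, xg_single (σ.injective.ne h)]
  by_cases ha : a = j
  · subst ha; simp
  · rw [if_neg ha, if_neg (σ.injective.ne ha), pm_single]

theorem pm_dg (σ : Perm (Fin n)) (i : Fin n) (c : Fˣ) :
    (pm σ : GLn) * dg i c * (pm σ)⁻¹ = dg (σ i) c := by
  rw [mul_inv_eq_iff_eq_mul]
  refine gl_ext fun a => ?_
  rw [ap_mul, ap_mul, dg_single, pm_single, dg_single, ap_smul, pm_single]
  simp only [σ.injective.eq_iff]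

theorem dg_xg (i : Fin n) (c : Fˣ) {k l : Fin n} (h : k ≠ l) (t : F) :
    (dg i c : GLn) * xg k l t * (dg i c)⁻¹ =
      xg k l ((if k = i then (c : F) else 1) / (if l = i then (c : F) else 1) * t) := by
  rw [mul_inv_eq_iff_eq_mul]
  refine gl_ext fun a => ?_
  rw [ap_mul, ap_mul, xg_single h, dg_single, ap_smul, xg_single h]
  by_cases ha : a = l
  · subst ha
    simp only [if_true, ap_add, ap_smul, dg_single, smul_add, smul_smul]
    congr 2
    have := c.ne_zero
    split_ifs <;> field_simp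
  · rw [if_neg ha, if_neg ha, dg_single]

theorem pm_swap_eq {j l : Fin n} (h : j ≠ l) :
    (pm (Equiv.swap j l) : GLn) = dg l (-1) * xg j l 1 * xg l j (-1) * xg j l 1 := by
  refine gl_ext fun a => ?_
  simp only [ap_mul, pm_single]
  by_cases h1 : a = j
  · subst h1
    simp [xg_single h, xg_single h.symm, h, h.symm]
  · by_cases h2 : a = l
    · subst h2
      simp [xg_single h, xg_single h.symm, h, h.symm]
    · simp [xg_single h, xg_single h.symm, h1, h2, Equiv.swap_apply_of_ne_of_ne h1 h2]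

/-- An element with prescribed column at `k`, the other basis vectors fixed. -/
noncomputable def colEl (k : Fin n) (v : Vn) (h : v k ≠ 0) : GLn :=
  Matrix.GeneralLinearGroup.mkOfDetNeZero ((1 : Matrix (Fin n) (Fin n) F).updateCol k v) (by
    rw [← Matrix.cramer_apply, Matrix.cramer_one]; exact h)

theorem colEl_single (k : Fin n) (v : Vn) (h : v k ≠ 0) (a : Fin n) :
    ap (colEl k v h) (Pi.single a 1) = if a = k then v else Pi.single a 1 := by
  show Matrix.mulVec ((1 : Matrix (Fin n) (Fin n) F).updateCol k v) (Pi.single a (1 : F)) = _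
  rw [Matrix.mulVec_single_one]
  funext x
  simp only [Matrix.col_apply, Matrix.updateCol_apply]
  split_ifs with h1
  · rfl
  · simp [Matrix.one_apply, Pi.single_apply]

theorem exists_first (o : Fin n) {v : Vn} (hv : v ≠ 0) : ∃ A : GLn, ap A (Pi.single o 1) = v := by
  obtain ⟨k, hk⟩ := Function.ne_iff.1 hv
  refine ⟨colEl k v hk * pm (Equiv.swap o k), ?_⟩
  rw [ap_mul, pm_single, Equiv.swap_apply_left, colEl_single, if_pos rfl]

theorem exists_second {o o' : Fin n} (ho : o ≠ o') (v w : Vn) (hv : v ≠ 0) (hw : ∀ c : F, c • v ≠ w) :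
    ∃ A : GLn, ap A (Pi.single o 1) = v ∧ ap A (Pi.single o' 1) = w := by
  obtain ⟨A, hA⟩ := exists_first o hv
  set w' := ap A⁻¹ w with hw'
  have hback : ap A w' = w := by rw [hw', ← ap_mul, mul_inv_cancel, ap_one]
  obtain ⟨k, hko, hk⟩ : ∃ k, k ≠ o ∧ w' k ≠ 0 := by
    by_contra hc
    push Not at hc
    apply hw (w' o)
    have e : w' = w' o • (Pi.single o 1 : Vn) := by
      funext x
      by_cases hx : x = o
      · subst hx; simp
      · simp [hx, hc x hx]
    rw [← hback, e, ← hA]
    simp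
  refine ⟨A * (colEl k w' hk * pm (Equiv.swap o' k)), ?_, ?_⟩
  · rw [ap_mul, ap_mul, pm_single, Equiv.swap_apply_of_ne_of_ne ho hko.symm, colEl_single,
      if_neg hko.symm, hA]
  · rw [ap_mul, ap_mul, pm_single, Equiv.swap_apply_left, colEl_single, if_pos rfl, hback]

theorem gl_closure [NeZero n] :
    Subgroup.closure ({A : GLn | ∃ i j t, i ≠ j ∧ A = xg i j t} ∪ Set.range (dg (0 : Fin n))) = ⊤ := by
  rw [eq_top_iff]
  intro A _
  set K := Subgroup.closure ({A : GLn | ∃ i j t, i ≠ j ∧ A = xg i j t} ∪ Set.range (dg (0 : Fin n)))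
  have hd : ∀ c, dg (0 : Fin n) c ∈ K := fun c => Subgroup.subset_closure (Or.inr ⟨c, rfl⟩)
  let d := Matrix.GeneralLinearGroup.det A
  let S : Matrix.SpecialLinearGroup (Fin n) F := ⟨((A * (dg (0 : Fin n) d)⁻¹ : GLn) : Matrix (Fin n) (Fin n) F), by
    have : Matrix.GeneralLinearGroup.det (A * (dg (0 : Fin n) d)⁻¹) = 1 := by
      rw [map_mul, map_inv, det_dg, mul_inv_cancel]
    exact congrArg Units.val this⟩
  have hS : Matrix.SpecialLinearGroup.toGL S ∈ K := by
    have htop := Cfsg.Agent.H1.SL_eq_top_of_transvection_mem (K.comap Matrix.SpecialLinearGroup.toGL)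
      (fun i j hij c => by
        rw [← rx_of_ne hij]
        exact Subgroup.subset_closure (Or.inl ⟨i, j, c, hij, rfl⟩))
    exact (show S ∈ K.comap Matrix.SpecialLinearGroup.toGL by rw [htop]; trivial)
  have e : A = Matrix.SpecialLinearGroup.toGL S * dg (0 : Fin n) d := by
    rw [show Matrix.SpecialLinearGroup.toGL S = A * (dg (0 : Fin n) d)⁻¹ from Units.ext rfl]
    group
  rw [e]
  exact mul_mem hS (hd _)

end Cfsg.Agent.H81.SpPres
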