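import Cfsg.Agent.H81.SpPres.SpTarget

/-!
# The embedded `SL_{m-1}`
-/

set_option autoImplicit false

namespace Cfsg.Agent.H81.SpPres

open Matrix Cfsg.Agent.H64.SLCover Cfsg.Agent.H81.SLnPres
open scoped MatrixGroups

variable {F : Type*} [Field F] {M : ℕ}

/-- `diag(1, A)`. -/
def blockMat (A : Matrix (Fin (M + 1)) (Fin (M + 1)) F) : Matrix (Fin (M + 2)) (Fin (M + 2)) F :=
  Matrix.of fun i j => Fin.cases (Fin.cases 1 (fun _ => 0) j) (fun i' => Fin.cases 0 (A i') j) i

theorem blockMat_det (A : Matrix (Fin (M + 1)) (Fin (M + 1)) F) : (blockMat A).det = A.det := by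
  rw [Matrix.det_succ_row_zero, Fin.sum_univ_succ]
  simp [blockMat, Matrix.submatrix]
  rfl

theorem blockMat_mul (A B : Matrix (Fin (M + 1)) (Fin (M + 1)) F) :
    blockMat (A * B) = blockMat A * blockMat B := by
  ext i j
  rw [Matrix.mul_apply, Fin.sum_univ_succ]
  refine Fin.cases ?_ (fun i' => ?_) i <;> refine Fin.cases ?_ (fun j' => ?_) j <;>
    simp [blockMat, Matrix.mul_apply]

theorem blockMat_one : blockMat (1 : Matrix (Fin (M + 1)) (Fin (M + 1)) F) = 1 := by
  ext i j
  refine Fin.cases ?_ (fun i' => ?_) i <;> refine Fin.cases ?_ (fun j' => ?_) j <;>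
    simp [blockMat, Matrix.one_apply, Ne.symm (Fin.succ_ne_zero _)]

/-- The embedding `A ↦ diag(1, A)`. -/
def blockHom : SL(M + 1, F) →* SL(M + 2, F) where
  toFun A := ⟨blockMat (A : Matrix (Fin (M + 1)) (Fin (M + 1)) F), by rw [blockMat_det]; exact A.2⟩
  map_one' := Subtype.ext blockMat_one
  map_mul' A B := Subtype.ext (blockMat_mul _ _)

theorem blk_blockHom (A : SL(M + 1, F)) : Blk (Matrix.SpecialLinearGroup.toGL (blockHom A)) := by
  constructor
  · funext i
    show (blockMat (A : Matrix (Fin (M + 1)) (Fin (M + 1)) F) *ᵥ Pi.single 0 1) i = ev 0 i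
    rw [Matrix.mulVec_single_one, Matrix.col_apply]
    refine Fin.cases ?_ (fun i' => ?_) i <;> simp [blockMat, ev]
  · intro a ha
    show (blockMat (A : Matrix (Fin (M + 1)) (Fin (M + 1)) F) *ᵥ Pi.single a 1) 0 = 0
    rw [Matrix.mulVec_single_one, Matrix.col_apply]
    revert ha
    refine Fin.cases ?_ (fun a' => ?_) a <;> simp [blockMat]

theorem exists_blockHom {S : SL(M + 2, F)} (hS : Blk (Matrix.SpecialLinearGroup.toGL S)) :
    ∃ A : SL(M + 1, F), blockHom A = S := by
  have h1 : ∀ a, (S : Matrix (Fin (M + 2)) (Fin (M + 2)) F) a 0 = (Pi.single 0 1 : Fin (M + 2) → F) a := fun a => by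
    have := congrFun hS.1 a
    simpa [ap, ev, Matrix.mulVec_single_one] using this
  have h2 : ∀ a, a ≠ 0 → (S : Matrix (Fin (M + 2)) (Fin (M + 2)) F) 0 a = 0 := fun a ha => by
    have := hS.2 a ha
    simpa [ap, ev, Matrix.mulVec_single_one] using this
  let A0 : Matrix (Fin (M + 1)) (Fin (M + 1)) F :=
    (S : Matrix (Fin (M + 2)) (Fin (M + 2)) F).submatrix Fin.succ Fin.succ
  have e : blockMat A0 = (S : Matrix (Fin (M + 2)) (Fin (M + 2)) F) := by
    ext i j
    refine Fin.cases ?_ (fun i' => ?_) i <;> refine Fin.cases ?_ (fun j' => ?_) j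
    · simpa [blockMat] using (h1 0).symm
    · simpa [blockMat] using (h2 j'.succ (Fin.succ_ne_zero j')).symm
    · simpa [blockMat] using (h1 i'.succ).symm
    · simp [blockMat, A0]
  have hd : A0.det = 1 := by rw [← blockMat_det, e]; exact S.2
  exact ⟨⟨A0, hd⟩, Subtype.ext e⟩

end Cfsg.Agent.H81.SpPres
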