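import Cfsg.Agent.H81.SpPres.SpEquiv
import Cfsg.Agent.H58.PSpFusion.Main
import Cfsg.Agent.H2.SpTwoGen.Basic

/-!
# The double cosets of the Siegel parabolic and the comparison with `Sp_{2m}(q)`
-/

set_option autoImplicit false
set_option maxHeartbeats 1000000

namespace Cfsg.Agent.H81.SpPres

open Equiv Matrix Cfsg.Agent.H64.SLCover Cfsg.Agent.H81.SLnPres
open Cfsg.Agent.H58.PSpFusion (lev levS sym iota coe_lev coe_sym coe_iota lev_mul_sym sym_add sym_congr sym_zero)
open scoped MatrixGroups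

variable {G : Type*} [Group G] {F : Type*} [Field F] {M : ℕ}

local notation "GLn" => GL (Fin (M + 2)) F
local notation "Vn" => (Fin (M + 2) → F)
local notation "Mn" => Matrix (Fin (M + 2)) (Fin (M + 2)) F
set_option quotPrecheck false
local notation "Spm" => ↥(Matrix.symplecticGroup (Fin (M + 2)) F)
local notation "M2" => Matrix (Fin (M + 2) ⊕ Fin (M + 2)) (Fin (M + 2) ⊕ Fin (M + 2)) F
local notation "bl" => fun a => (Pi.single (Sum.inl a) 1 : Fin (M + 2) ⊕ Fin (M + 2) → F)
local notation "br" => fun a => (Pi.single (Sum.inr a) 1 : Fin (M + 2) ⊕ Fin (M + 2) → F)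

theorem iota_sx [Finite F] (l : Fin (M + 2)) (t : F) :
    iota l (rx 0 1 t) = sym (Matrix.single l l t) (Matrix.transpose_single _ _ _) := by
  apply Subtype.ext
  rw [rx2_upper, coe_iota]
  refine Eq.trans ?_ (coe_sym _ _).symm
  simp [H92.sx_00, H92.sx_01, H92.sx_10, H92.sx_11]

theorem iota_torHom [Finite F] (c : Fˣ) :
    iota (0 : Fin (M + 2)) (torHom c) = lev (dg 0 c : GLn) := by
  apply Subtype.ext
  rw [coe_iota, coe_lev, torHom_eq]
  simp only [Cfsg.Agent.H81.SLPres.hm_00, Cfsg.Agent.H81.SLPres.hm_01, Cfsg.Agent.H81.SLPres.hm_10,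
    Cfsg.Agent.H81.SLPres.hm_11]
  have e1 : ((dg (0 : Fin (M + 2)) c : GLn) : Mn) = Matrix.diagonal fun a => if a = 0 then (c : F) else 1 := rfl
  have e2 : (((dg (0 : Fin (M + 2)) c : GLn)⁻¹ : GLn) : Mn) =
      Matrix.diagonal fun a => if a = 0 then ((c⁻¹ : Fˣ) : F) else 1 := rfl
  rw [e1, e2, Matrix.diagonal_transpose]
  congr 1 <;>
  · ext a b
    simp [Matrix.single, Matrix.diagonal, Matrix.one_apply]
    try (split_ifs <;> first | ring1 | grind)

theorem lev_pm_inl [Finite F] (σ : Perm (Fin (M + 2))) (a : Fin (M + 2)) :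
    (lev (pm σ : GLn) : M2) *ᵥ bl a = bl (σ a) := by
  rw [coe_lev]
  funext x
  simp only [Matrix.mulVec_single_one, Matrix.col_apply]
  rcases x with x | x
  · have := congrFun (pm_single (F := F) σ a) x
    simp only [ap, Matrix.mulVec_single_one, Matrix.col_apply] at this
    simp [this, Pi.single_apply]
  · simp

theorem lev_pm_inr [Finite F] (σ : Perm (Fin (M + 2))) (a : Fin (M + 2)) :
    (lev (pm σ : GLn) : M2) *ᵥ br a = br (σ a) := by
  rw [coe_lev]
  funext x
  simp only [Matrix.mulVec_single_one, Matrix.col_apply]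
  rcases x with x | x
  · simp
  · have e : (((pm σ : GLn)⁻¹ : GLn) : Mn)ᵀ x a = σ⁻¹.permMatrix F x a := by
      rw [show (((pm σ : GLn)⁻¹ : GLn) : Mn) = σ.permMatrix F from rfl, Matrix.transpose_permMatrix]
    have := congrFun (pm_single (F := F) σ a) x
    simp only [ap, Matrix.mulVec_single_one, Matrix.col_apply] at this
    simp only [Matrix.fromBlocks_apply₂₂, e]
    rw [show σ⁻¹.permMatrix F x a = (pm σ : GLn).1 x a from rfl, this]
    simp [Pi.single_apply]

theorem iota_sw_inl [Finite F] (a : Fin (M + 2)) :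
    (iota (0 : Fin (M + 2)) (H92.sw : SL(2, F)) : M2) *ᵥ bl a = if a = 0 then -(br a) else bl a := by
  rw [coe_iota]
  funext x
  simp only [Matrix.mulVec_single_one, Matrix.col_apply]
  rcases x with x | x <;> split_ifs with h <;>
    simp [Matrix.single, Matrix.one_apply, Pi.single_apply, H92.sw, h] <;> grind

theorem iota_sw_inr [Finite F] (a : Fin (M + 2)) (ha : a ≠ 0) :
    (iota (0 : Fin (M + 2)) (H92.sw : SL(2, F)) : M2) *ᵥ br a = br a := by
  rw [coe_iota]
  funext x
  simp only [Matrix.mulVec_single_one, Matrix.col_apply]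
  rcases x with x | x <;> simp [Matrix.single, Matrix.one_apply, Pi.single_apply, H92.sw] <;> grind

theorem row_linear (X Y : GLn) {l l' : Fin (M + 2)}
    (h : ∀ a, ap X (ev a) l = ap Y (ev a) l') (v : Vn) : ap X v l = ap Y v l' := by
  simp only [ap, Matrix.mulVec, dotProduct]
  refine Finset.sum_congr rfl fun b _ => ?_
  have := h b
  simp only [ap, ev, Matrix.mulVec_single_one, Matrix.col_apply] at this
  rw [this]

namespace SpBase

variable {B : SpBase G F M} (R : B.Rels) [Fintype F] (hO : B.Mix)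

include R

theorem wk_pairwise (s : Finset (Fin (M + 2))) : (s : Set (Fin (M + 2))).Pairwise (Function.onFun Commute (wk R)) :=
  fun _ _ _ _ h => Lk_disjoint R h _ _

/-- The product of Weyl elements over a set of coordinates. -/
noncomputable def W (s : Finset (Fin (M + 2))) : G := s.noncommProd (wk R) (wk_pairwise R s)

theorem W_insert {s : Finset (Fin (M + 2))} {l : Fin (M + 2)} (h : l ∉ s) :
    W R (insert l s) = W R s * wk R l :=
  Finset.noncommProd_insert_of_notMem' _ _ _ _ h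

theorem W_erase {s : Finset (Fin (M + 2))} {l : Fin (M + 2)} (h : l ∈ s) :
    W R s = W R (s.erase l) * wk R l := by
  rw [← W_insert R (Finset.notMem_erase l s)]
  congr 1
  exact (Finset.insert_erase h).symm

theorem W_commute {s : Finset (Fin (M + 2))} {y : G} (h : ∀ i ∈ s, Commute (wk R i) y) :
    Commute (W R s) y :=
  (Finset.noncommProd_commute _ _ _ _ fun i hi => (h i hi).symm).symm

theorem W_empty : W R ∅ = 1 := Finset.noncommProd_empty _ _

include hO

theorem T_ev0 (t : F) : T R (ev 0) t = B.u t := by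
  rw [T_ev R 0 t, Lk_zero]; rfl

theorem oh_wk {i j k : Fin (M + 2)} (hjk : j ≠ k) (hij : i ≠ j) (hik : i ≠ k) (c : F) :
    Commute (wk R i) (oh R j k c) := by
  have h1 : Commute (wk R i) (wk R k) := Lk_disjoint R hik _ _
  have h2 : Commute (wk R i) (Xi R (xg j k (-c))) := (Lk_xg R hjk hij.symm hik.symm _ _).symm
  exact (h1.mul_right h2).mul_right h1.inv_right

/-- The Siegel parabolic subgroup of `G`. -/
def P : Subgroup G where
  carrier := {x | ∃ (A : GLn) (C : Mn), C.IsSymm ∧ x = Xi R A * sm R hO C}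
  one_mem' := ⟨1, 0, Matrix.isSymm_zero, by rw [map_one, sm_zero, one_mul]⟩
  mul_mem' := by
    rintro _ _ ⟨A, C, hC, rfl⟩ ⟨A', C', hC', rfl⟩
    have h := sm_conj R hO A'⁻¹ C hC
    refine ⟨A * A', ((A'⁻¹ : GLn) : Mn) * C * ((A'⁻¹ : GLn) : Mn)ᵀ + C', ?_, ?_⟩
    · refine Matrix.IsSymm.add ?_ hC'
      show _ = _
      rw [Matrix.transpose_mul, Matrix.transpose_mul, Matrix.transpose_transpose, hC.eq, Matrix.mul_assoc]
    · rw [sm_add, ← h, map_mul, map_inv]; group
  inv_mem' := by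
    rintro _ ⟨A, C, hC, rfl⟩
    have hC' : (-C).IsSymm := hC.neg
    have hn : sm R hO (-C) = (sm R hO C)⁻¹ := by
      rw [← mul_eq_one_iff_eq_inv, ← sm_add, neg_add_cancel, sm_zero]
    refine ⟨A⁻¹, (A : Mn) * (-C) * (A : Mn)ᵀ, ?_, ?_⟩
    · show _ = _
      rw [Matrix.transpose_mul, Matrix.transpose_mul, Matrix.transpose_transpose, hC'.eq, Matrix.mul_assoc]
    · rw [← sm_conj R hO A (-C) hC', hn, map_inv]; group

theorem Xi_mem (A : GLn) : Xi R A ∈ P R hO := ⟨A, 0, Matrix.isSymm_zero, by rw [sm_zero, mul_one]⟩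

theorem sm_mem_P {C : Mn} (hC : C.IsSymm) : sm R hO C ∈ P R hO := ⟨1, C, hC, by rw [map_one, one_mul]⟩

theorem T_mem_P (v : Vn) (t : F) : T R v t ∈ P R hO := by
  rw [← sm_T R hO]; exact sm_mem_P R hO (outer_isSymm t v)

theorem oh_mem_P {j k : Fin (M + 2)} (h : j ≠ k) (c : F) : oh R j k c ∈ P R hO := by
  rw [oh_formula R hO h]
  exact mul_mem (mul_mem (T_mem_P R hO _ _) (T_mem_P R hO _ _)) (T_mem_P R hO _ _)

/-- The elements of `GL_m` staying in the parabolic after conjugation by a Weyl element. -/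
noncomputable def side (s : Finset (Fin (M + 2))) : Subgroup GLn :=
  (P R hO).comap ((MulAut.conj (W R s)).toMonoidHom.comp (Xi R))

theorem mem_side {s : Finset (Fin (M + 2))} {A : GLn} :
    A ∈ side R hO s ↔ W R s * Xi R A * (W R s)⁻¹ ∈ P R hO := Iff.rfl

theorem dg_side (s : Finset (Fin (M + 2))) (i : Fin (M + 2)) (c : Fˣ) : dg i c ∈ side R hO s := by
  rw [mem_side]
  by_cases hi : i ∈ s
  · have hc : Commute (W R (s.erase i)) (Xi R (dg i c⁻¹)) :=
      W_commute R fun l hl => (Lk_dg R (Finset.ne_of_mem_erase hl).symm _ _).symm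
    rw [W_erase R hi, show ∀ a b x : G, a * b * x * (a * b)⁻¹ = a * (b * x * b⁻¹) * a⁻¹ from
      fun a b x => by group, wk_dg, hc.eq, mul_inv_cancel_right]
    exact Xi_mem R hO _
  · have hc : Commute (W R s) (Xi R (dg i c)) :=
      W_commute R fun l hl => (Lk_dg R (fun (e : i = l) => hi (e ▸ hl)) _ _).symm
    rw [hc.eq, mul_inv_cancel_right]
    exact Xi_mem R hO _

theorem xg_side {s : Finset (Fin (M + 2))} {j i : Fin (M + 2)} (hji : j ≠ i) (h : j ∈ s → i ∈ s) (a : F) :
    xg j i a ∈ side R hO s := by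
  rw [mem_side]
  have split : ∀ a b x : G, a * b * x * (a * b)⁻¹ = a * (b * x * b⁻¹) * a⁻¹ := fun a b x => by group
  have hoh : wk R i * Xi R (xg j i a) * (wk R i)⁻¹ = oh R j i (-a) := by rw [oh, neg_neg]
  by_cases hi : i ∈ s
  · rw [W_erase R hi, split, hoh]
    by_cases hj : j ∈ s
    · have hj' : j ∈ s.erase i := Finset.mem_erase.2 ⟨hji, hj⟩
      have e : wk R j * oh R j i (-a) * (wk R j)⁻¹ = Xi R (dg j (-1) * xg i j a * (dg j (-1))⁻¹) := by
        rw [oh_symm R hO hji, oh, neg_neg, map_mul, map_mul, map_inv, ← wk_sq]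
        group
      rw [W_erase R hj', split, e]
      have hc : Commute (W R ((s.erase i).erase j)) (Xi R (dg j (-1) * xg i j a * (dg j (-1))⁻¹)) := by
        refine W_commute R fun l hl => ?_
        have hlj : l ≠ j := Finset.ne_of_mem_erase hl
        have hli : l ≠ i := Finset.ne_of_mem_erase (Finset.mem_of_mem_erase hl)
        rw [map_mul, map_mul, map_inv]
        have c1 : Commute (wk R l) (Xi R (dg j (-1))) := (Lk_dg R hlj.symm _ _).symm
        have c2 : Commute (wk R l) (Xi R (xg i j a)) := (Lk_xg R hji.symm hli.symm hlj.symm _ _).symm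
        exact (c1.mul_right c2).mul_right c1.inv_right
      rw [hc.eq, mul_inv_cancel_right]
      exact Xi_mem R hO _
    · have hc : Commute (W R (s.erase i)) (oh R j i (-a)) :=
        W_commute R fun l hl => oh_wk R hO hji
          (fun (e : l = j) => hj (e ▸ Finset.mem_of_mem_erase hl)) (Finset.ne_of_mem_erase hl) _
      rw [hc.eq, mul_inv_cancel_right]
      exact oh_mem_P R hO hji _
  · have hj : j ∉ s := fun hj => hi (h hj)
    have hc : Commute (W R s) (Xi R (xg j i a)) :=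
      W_commute R fun l hl => (Lk_xg R hji (fun (e : j = l) => hj (e ▸ hl)) (fun (e : i = l) => hi (e ▸ hl)) _ _).symm
    rw [hc.eq, mul_inv_cancel_right]
    exact Xi_mem R hO _

theorem pm_side {s : Finset (Fin (M + 2))} {j l : Fin (M + 2)} (h : j ∈ s ↔ l ∈ s) :
    pm (swap j l) ∈ side R hO s := by
  rcases eq_or_ne j l with rfl | hjl
  · rw [swap_self, show (pm (Equiv.refl (Fin (M + 2))) : GLn) = 1 from
      gl_ext fun a => by rw [pm_single, ap_one]; rfl]
    exact one_mem _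
  · rw [pm_swap_eq hjl]
    exact mul_mem (mul_mem (mul_mem (dg_side R hO s l _) (xg_side R hO hjl h.1 _))
      (xg_side R hO hjl.symm h.2 _)) (xg_side R hO hjl h.1 _)

theorem exists_row {s : Finset (Fin (M + 2))} (j : Fin (M + 2)) (t : Finset (Fin (M + 2))) :
    ∀ φ : Vn, φ j ≠ 0 → (∀ a, a ∉ t → a ≠ j → φ a = 0) → (∀ a, φ a ≠ 0 → j ∈ s → a ∈ s) →
      ∃ Q ∈ side R hO s, ∀ a, ap Q (ev a) j = φ a := by
  induction t using Finset.induction_on with
  | empty =>
    intro φ hj hsup _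
    refine ⟨dg j (Units.mk0 (φ j) hj), dg_side R hO s j _, fun a => ?_⟩
    rw [ev, dg_single, Pi.smul_apply, Pi.single_apply]
    by_cases ha : a = j
    · subst ha; simp
    · simp [ha, Ne.symm ha, hsup a (Finset.notMem_empty _) ha]
  | @insert i t hit ih =>
    intro φ hj hsup hall
    by_cases hi : i = j ∨ φ i = 0
    · refine ih φ hj (fun a hat haj => ?_) hall
      by_cases hai : a = i
      · subst hai; exact hi.resolve_left haj
      · exact hsup a (by simp [hai, hat]) haj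
    push Not at hi
    obtain ⟨hij, hφi⟩ := hi
    obtain ⟨Q, hQ, hrow⟩ := ih (Function.update φ i 0) (by rwa [Function.update_of_ne hij.symm])
      (fun a hat haj => by
        by_cases hai : a = i
        · subst hai; exact Function.update_self _ _ _
        · rw [Function.update_of_ne hai]; exact hsup a (by simp [hai, hat]) haj)
      (fun a ha hjs => by
        by_cases hai : a = i
        · subst hai; simp at ha
        · rw [Function.update_of_ne hai] at ha; exact hall a ha hjs)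
    refine ⟨Q * xg j i (φ i / φ j), mul_mem hQ (xg_side R hO hij.symm (fun h => hall i hφi h) _), fun a => ?_⟩
    rw [ap_mul, ev, xg_single hij.symm]
    by_cases hai : a = i
    · subst hai
      rw [if_pos rfl, ap_add, ap_smul, Pi.add_apply, Pi.smul_apply, ← ev, ← ev, hrow, hrow,
        Function.update_self, Function.update_of_ne hij.symm, smul_eq_mul, zero_add, div_mul_cancel₀ _ hj]
    · rw [if_neg hai, ← ev, hrow, Function.update_of_ne hai]

theorem w0_inv : (wk R (0 : Fin (M + 2)))⁻¹ = wk R 0 * Xi R (dg 0 (-1)) := by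
  rw [← Lk_tor R, wk, ← map_inv, ← map_mul, sw_inv]

/-- The elements of `GL_m` staying in the parabolic after conjugation by the first Weyl element. -/
noncomputable def side0 : Subgroup GLn :=
  (P R hO).comap ((MulAut.conj (wk R 0)⁻¹).toMonoidHom.comp (Xi R))

theorem mem_side0 {A : GLn} :
    A ∈ side0 R hO ↔ (wk R 0)⁻¹ * Xi R A * wk R 0 ∈ P R hO := by
  show (wk R 0)⁻¹ * Xi R A * ((wk R 0)⁻¹)⁻¹ ∈ P R hO ↔ _
  rw [inv_inv]

theorem xg_side0 {a : Fin (M + 2)} (ha : a ≠ 0) (c : F) : xg a 0 c ∈ side0 R hO := by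
  rw [mem_side0]
  have e : (wk R 0)⁻¹ * Xi R (xg a 0 c) * wk R 0 = oh R a 0 c := by
    have hd : dg 0 (-1) * xg a 0 c * (dg 0 (-1))⁻¹ = (xg a 0 (-c) : GLn) := by
      rw [dg_xg _ _ ha]; simp [ha, div_neg]
    have hi := w0_inv R hO
    have hc : Commute (wk R 0) (Xi R (dg (0 : Fin (M + 2)) (-1))) := by
      rw [← wk_sq]; exact (Commute.refl _).mul_right (Commute.refl _)
    have hw : (Xi R (dg (0 : Fin (M + 2)) (-1)))⁻¹ * (wk R 0)⁻¹ = wk R 0 := by
      rw [hi, hc.eq, inv_mul_cancel_left]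
    calc (wk R 0)⁻¹ * Xi R (xg a 0 c) * wk R 0
        = (wk R 0 * Xi R (dg 0 (-1))) * Xi R (xg a 0 c) *
            ((Xi R (dg (0 : Fin (M + 2)) (-1)))⁻¹ * (wk R 0)⁻¹) := by rw [hw, ← hi]
      _ = _ := by rw [oh, ← hd, map_mul, map_mul, map_inv]; group
  rw [e]
  exact oh_mem_P R hO ha c

theorem lower_side0 {A : GLn} (hrow : ∀ a, ap A (ev a) 0 = if a = 0 then 1 else 0) : A ∈ side0 R hO := by
  classical
  suffices h : ∀ (t : Finset (Fin (M + 2))) (A : GLn), (∀ a, ap A (ev a) 0 = if a = 0 then 1 else 0) →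
      (∀ i, i ≠ 0 → i ∉ t → ap A (ev 0) i = 0) → A ∈ side0 R hO from
    h Finset.univ A hrow fun i _ h => absurd (Finset.mem_univ i) h
  intro t
  induction t using Finset.induction_on with
  | empty =>
    intro A hrow hcol
    have hb : Blk A := by
      refine ⟨funext fun i => ?_, fun a ha => by rw [hrow, if_neg ha]⟩
      by_cases hi : i = 0
      · subst hi; rw [hrow, if_pos rfl]; simp [ev]
      · rw [hcol i hi (Finset.notMem_empty _)]; simp [ev, hi]
    rw [mem_side0]
    have : Commute (Xi R A) (wk R 0) := by rw [wk, Lk_zero]; exact blk_commute R hb _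
    rw [mul_assoc, this.eq, ← mul_assoc, inv_mul_cancel, one_mul]
    exact Xi_mem R hO _
  | @insert i t hit ih =>
    intro A hrow hcol
    by_cases hi : i = 0
    · exact ih A hrow fun a ha hat => hcol a ha (by simp [hi, ha, hat])
    let c := ap A (ev 0) i
    have hA' : xg i 0 (-c) * A ∈ side0 R hO := by
      have hz : ∀ v : Vn, ap (xg i 0 (-c)) v = v + (-c * v 0) • ev i := by
        intro v
        show ((xg i 0 (-c) : GLn) : Mn) *ᵥ v = _
        rw [show ((xg i 0 (-c) : GLn) : Mn) = 1 + Matrix.single i 0 (-c) from rx_coe hi _, Matrix.add_mulVec,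
          Matrix.one_mulVec]
        rw [Matrix.single_mulVec_eq]
        rfl
      refine ih _ (fun a => ?_) fun a ha hat => ?_
      · rw [ap_mul, hz, Pi.add_apply, Pi.smul_apply, hrow a]; simp [ev, Ne.symm hi]
      · rw [ap_mul, hz, Pi.add_apply, Pi.smul_apply, hrow 0, if_pos rfl]
        by_cases hai : a = i
        · subst hai; simp [ev, c]
        · rw [hcol a ha (by simp [hai, hat])]; simp [ev, hai]
    have e : A = xg i 0 c * (xg i 0 (-c) * A) := by
      rw [← mul_assoc, ← xg_add, add_neg_cancel, xg_zero, one_mul]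
    rw [e]
    exact mul_mem (xg_side0 R hO hi c) hA'

theorem sm_side0 {C : Mn} (hC : C.IsSymm) (h00 : C 0 0 = 0) :
    (wk R 0)⁻¹ * sm R hO C * wk R 0 ∈ P R hO := by
  let Q : Mn → Prop := fun C => (wk R 0)⁻¹ * sm R hO (C - Matrix.single 0 0 (C 0 0)) * wk R 0 ∈ P R hO
  have hfix : ∀ y, Commute (wk R 0) y → y ∈ P R hO → (wk R 0)⁻¹ * y * wk R 0 ∈ P R hO := by
    intro y hy hm
    rwa [mul_assoc, ← hy.eq, inv_mul_cancel_left]
  have key : Q C := by
    refine sym_ind Q ?_ ?_ ?_ ?_ C hC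
    · simp [Q, sm_zero R hO]
    · intro A A' h1 h2 _ _
      have e : A + A' - Matrix.single 0 0 ((A + A') 0 0) =
          (A - Matrix.single 0 0 (A 0 0)) + (A' - Matrix.single 0 0 (A' 0 0)) := by
        rw [Matrix.add_apply, Matrix.single_add]; abel
      simp only [Q]
      rw [e, sm_add]
      have := mul_mem h1 h2
      rwa [show (wk R 0)⁻¹ * sm R hO (A - Matrix.single 0 0 (A 0 0)) * wk R 0 *
        ((wk R 0)⁻¹ * sm R hO (A' - Matrix.single 0 0 (A' 0 0)) * wk R 0) = (wk R 0)⁻¹ *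
        (sm R hO (A - Matrix.single 0 0 (A 0 0)) * sm R hO (A' - Matrix.single 0 0 (A' 0 0))) * wk R 0 by group] at this
    · intro l t
      by_cases hl : l = 0
      · subst hl; simp [Q, Matrix.single_apply_same, sm_zero R hO]
      · have : Matrix.single l l t (0 : Fin (M + 2)) 0 = 0 := by simp [Matrix.single, hl]
        simp only [Q]
        rw [this, Matrix.single_zero, sub_zero, sm_single]
        refine hfix _ ?_ (T_mem_P R hO _ _)
        rw [T_ev, wk]
        exact Lk_disjoint R (Ne.symm hl) _ _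
    · intro j k c hjk
      have : pair j k c (0 : Fin (M + 2)) 0 = 0 := by
        have h1 : ¬ (j = 0 ∧ k = 0) := fun h => hjk (h.1.trans h.2.symm)
        have h2 : ¬ (k = 0 ∧ j = 0) := fun h => hjk (h.2.trans h.1.symm)
        simp [pair, Matrix.single, h1, h2]
      simp only [Q]
      rw [this, Matrix.single_zero, sub_zero, sm_pair R hO _ hjk]
      have back : ∀ a c, (wk R 0)⁻¹ * oh R a 0 c * wk R 0 ∈ P R hO := fun a c => by
        rw [oh, show ∀ w x : G, w⁻¹ * (w * x * w⁻¹) * w = x from fun w x => by group]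
        exact Xi_mem R hO _
      by_cases hk : k = 0
      · subst hk; exact back j c
      by_cases hj : j = 0
      · subst hj; rw [oh_symm R hO hjk]; exact back k c
      exact hfix _ (oh_wk R hO hjk (Ne.symm hj) (Ne.symm hk) c) (oh_mem_P R hO hjk c)
  simp only [Q] at key
  rwa [h00, Matrix.single_zero, sub_zero] at key

omit R hO in
/-- The first `k` coordinates. -/
def seg (M k : ℕ) : Finset (Fin (M + 2)) := Finset.univ.filter fun a => a.val < k

/-- The union of the double cosets. -/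
def cells : Set G :=
  {x | ∃ (p p' : G) (k : ℕ), p ∈ P R hO ∧ p' ∈ P R hO ∧ k ≤ M + 2 ∧ x = p * W R (seg M k) * p'}

theorem cells_mul_P {x p : G} (hx : x ∈ cells R hO) (hp : p ∈ P R hO) : x * p ∈ cells R hO := by
  obtain ⟨a, b, k, ha, hb, hk, rfl⟩ := hx
  exact ⟨a, b * p, k, ha, mul_mem hb hp, hk, by group⟩

theorem step_core (k : ℕ) (hkM : k ≤ M + 2) (l : Fin (M + 2)) (hl : l.val = k ∨ l.val + 1 = k) (t : F) :
    W R (seg M k) * Lk R l (rx 0 1 t) * wk R l ∈ cells R hO := by
  have hT : ∀ s, Lk R l (rx 0 1 s) ∈ P R hO := fun s => by rw [← T_ev]; exact T_mem_P R hO _ _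
  have hcom : ∀ s : Finset (Fin (M + 2)), l ∉ s → ∀ y, Commute (W R s) (Lk R l y) := fun s hs y =>
    W_commute R fun i hi => Lk_disjoint R (fun (e : i = l) => hs (e ▸ hi)) _ _
  rcases hl with hl | hl
  · have hls : l ∉ seg M k := by simp [seg, hl]
    have e : seg M (k + 1) = insert l (seg M k) := by
      ext a; simp [seg, Fin.ext_iff, hl]; omega
    refine ⟨Lk R l (rx 0 1 t), 1, k + 1, hT t, one_mem _, by omega, ?_⟩
    rw [e, W_insert R hls, (hcom _ hls _).eq]
    group
  · have hls : l ∈ seg M k := by simp [seg]; omega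
    set s' := (seg M k).erase l
    have hls' : l ∉ s' := Finset.notMem_erase _ _
    rcases eq_or_ne t 0 with rfl | ht
    · have e : seg M l.val = s' := by
        ext a; simp [s', seg, Fin.ext_iff]; omega
      refine ⟨1, Xi R (dg l (-1)), l.val, one_mem _, Xi_mem R hO _, by omega, ?_⟩
      rw [rx_zero, map_one, mul_one, W_erase R hls, mul_assoc, wk_sq, e]
      simp only [s', one_mul]
    · refine ⟨Lk R l (rx 0 1 (-t⁻¹)) * Lk R l (torHom (Units.mk0 (-t⁻¹) (neg_ne_zero.2 (inv_ne_zero ht)))),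
        Lk R l (rx 0 1 (-t⁻¹)), k, mul_mem (hT _) (by rw [Lk_tor]; exact Xi_mem R hO _), hT _, hkM, ?_⟩
      rw [W_erase R hls]
      calc W R s' * wk R l * Lk R l (rx 0 1 t) * wk R l
          = W R s' * Lk R l (H92.sw * H92.sx t * H92.sw) := by
            rw [map_mul, map_mul, ← rx2_upper]; simp only [wk, mul_assoc]
        _ = W R s' * (Lk R l (rx 0 1 (-t⁻¹)) * Lk R l (torHom (Units.mk0 (-t⁻¹) (neg_ne_zero.2 (inv_ne_zero ht))))) *
              (wk R l * Lk R l (rx 0 1 (-t⁻¹))) := by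
            rw [sw_sx_sw t ht, map_mul, map_mul, map_mul, rx2_upper]; simp only [wk, mul_assoc]
        _ = _ := by
            rw [← map_mul, (hcom s' hls' _).eq]
            simp only [mul_assoc, s']

theorem cells_w0 {x : G} (hx : x ∈ cells R hO) : x * wk R 0 ∈ cells R hO := by
  classical
  obtain ⟨p, _, k, hp, ⟨A, C, hC, rfl⟩, hkM, rfl⟩ := hx
  set s := seg M k
  -- the functional
  let φ : Vn := fun a => ap A⁻¹ (ev a) 0
  have hφ : φ ≠ 0 := by
    intro h
    have := row_linear A⁻¹ A⁻¹ (l := 0) (l' := 0) (fun _ => rfl) (ap A (ev 0))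
    have h2 : ap A⁻¹ (ap A (ev 0)) 0 = 0 := by
      simp only [ap, Matrix.mulVec, dotProduct]
      refine Finset.sum_eq_zero fun b _ => ?_
      have hb := congrFun h b
      simp only [φ, ap, ev, Matrix.mulVec_single_one, Matrix.col_apply, Pi.zero_apply] at hb
      rw [hb, zero_mul]
    rw [← ap_mul, inv_mul_cancel, ap_one] at h2
    simp [ev] at h2
  obtain ⟨j, hj, hsup, l, hside, hl⟩ : ∃ j, φ j ≠ 0 ∧ (∀ a, φ a ≠ 0 → j ∈ s → a ∈ s) ∧
      ∃ l, (j ∈ s ↔ l ∈ s) ∧ (l.val = k ∨ l.val + 1 = k) := by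
    by_cases h : ∃ j, φ j ≠ 0 ∧ j ∉ s
    · obtain ⟨j, hj, hjs⟩ := h
      have hk : k ≤ j.val := by simpa [s, seg] using hjs
      refine ⟨j, hj, fun a _ h => absurd h hjs, ⟨k, by omega⟩, ?_, Or.inl rfl⟩
      simp [s, seg, hk]
    · push Not at h
      obtain ⟨j, hj⟩ := Function.ne_iff.1 hφ
      have hjs := h j hj
      have hk : j.val < k := by simpa [s, seg] using hjs
      refine ⟨j, hj, fun a ha _ => h a ha, ⟨min (k - 1) (M + 1), by omega⟩, ?_, ?_⟩
      · simp only [s, seg, Finset.mem_filter, Finset.mem_univ, true_and]; constructor <;> intro <;> omega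
      · right; show min (k - 1) (M + 1) + 1 = k; omega
  obtain ⟨Q, hQ, hrow⟩ := exists_row R hO j Finset.univ φ hj
    (fun a h => absurd (Finset.mem_univ a) h) hsup
  let Q2 : GLn := pm (swap j l) * Q
  have hQ2 : Q2 ∈ side R hO s := mul_mem (pm_side R hO hside) hQ
  have hpm : ∀ (i j : Fin (M + 2)) (v : Vn) , ap (pm (swap i j)) v j = v i := by
    intro i j v
    show ((swap i j)⁻¹.permMatrix F *ᵥ v) j = v i
    rw [Matrix.permMatrix_mulVec]; simp
  have hrow2 : ∀ v, ap Q2 v l = ap A⁻¹ v 0 := fun v => by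
    show ap (pm (swap j l) * Q) v l = _
    rw [ap_mul, hpm]
    exact row_linear Q A⁻¹ hrow v
  let A0 : GLn := pm (swap 0 l) * (Q2 * A)
  have hA0 : ∀ a, ap A0 (ev a) 0 = if a = 0 then 1 else 0 := by
    intro a
    show ap (pm (swap 0 l) * (Q2 * A)) (ev a) 0 = _
    rw [ap_mul, Equiv.swap_comm, hpm, ap_mul, hrow2, ← ap_mul, inv_mul_cancel, ap_one, ev, Pi.single_apply]
    simp [eq_comm]
  have hA : A = Q2⁻¹ * (pm (swap 0 l) * A0) := by
    have : (pm (swap 0 l) : GLn) * pm (swap 0 l) = 1 := by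
      rw [← pm_mul, Equiv.swap_mul_self]; exact gl_ext fun a => by rw [pm_single, ap_one]; rfl
    show A = Q2⁻¹ * (pm (swap 0 l) * (pm (swap 0 l) * (Q2 * A)))
    rw [← mul_assoc (pm (swap 0 l)), this, one_mul, inv_mul_cancel_left]
  -- split the symmetric part
  let C' := C - Matrix.single 0 0 (C 0 0)
  have hC' : C'.IsSymm := hC.sub (Matrix.transpose_single _ _ _)
  have hsC : sm R hO C = B.u (C 0 0) * sm R hO C' := by
    rw [← T_ev0 R hO, ← sm_single R hO, ← sm_add, add_sub_cancel]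
  let C1 := C 0 0 • outer (ap A0 (ev 0))
  let C2 := C1 - Matrix.single 0 0 (C1 0 0)
  have hC1 : C1.IsSymm := outer_isSymm _ _
  have hC2 : C2.IsSymm := hC1.sub (Matrix.transpose_single _ _ _)
  have hA0u : Xi R A0 * B.u (C 0 0) = B.u (C1 0 0) * sm R hO C2 * Xi R A0 := by
    rw [← mul_inv_eq_iff_eq_mul, ← T_ev0 R hO, T_conj, ← sm_T R hO, ← T_ev0 R hO, ← sm_single R hO, ← sm_add,
      add_sub_cancel]
  have z1 : (wk R 0)⁻¹ * sm R hO C2 * wk R 0 ∈ P R hO :=
    sm_side0 R hO hC2 (by simp [C2, Matrix.single_apply_same])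
  have z2 : (wk R 0)⁻¹ * Xi R A0 * wk R 0 ∈ P R hO := (mem_side0 R hO).1 (lower_side0 R hO hA0)
  have z3 : (wk R 0)⁻¹ * sm R hO C' * wk R 0 ∈ P R hO :=
    sm_side0 R hO hC' (by simp [C', Matrix.single_apply_same])
  have hπu : ∀ y, Xi R (pm (swap 0 l)) * B.L y = Lk R l y * Xi R (pm (swap 0 l)) := fun y => by
    rw [Lk_apply]; group
  have hw : wk R 0 = B.L H92.sw := by rw [wk, Lk_zero]
  obtain ⟨q, q', k', hq, hq', hk', e⟩ := step_core R hO k hkM l hl (C1 0 0)
  have hn : W R s * Xi R Q2⁻¹ * (W R s)⁻¹ ∈ P R hO := (mem_side R hO).1 (inv_mem hQ2)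
  refine ⟨p * (W R s * Xi R Q2⁻¹ * (W R s)⁻¹) * q,
    q' * Xi R (pm (swap 0 l)) * ((wk R 0)⁻¹ * sm R hO C2 * wk R 0) * ((wk R 0)⁻¹ * Xi R A0 * wk R 0) *
      ((wk R 0)⁻¹ * sm R hO C' * wk R 0), k', mul_mem (mul_mem hp hn) hq,
    mul_mem (mul_mem (mul_mem (mul_mem hq' (Xi_mem R hO _)) z1) z2) z3, hk', ?_⟩
  have key : Xi R A * B.u (C 0 0) = Xi R Q2⁻¹ * (Lk R l (rx 0 1 (C1 0 0)) * Xi R (pm (swap 0 l))) *
      sm R hO C2 * Xi R A0 := by
    rw [← hπu]
    calc Xi R A * B.u (C 0 0) = Xi R Q2⁻¹ * Xi R (pm (swap 0 l)) * (Xi R A0 * B.u (C 0 0)) := by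
          rw [hA, map_mul, map_mul]; group
      _ = _ := by rw [hA0u]; simp only [SpBase.u, mul_assoc]
  have hπw : Xi R (pm (swap 0 l)) * wk R 0 = wk R l * Xi R (pm (swap 0 l)) := by
    rw [hw]; exact hπu _
  calc p * W R s * (Xi R A * sm R hO C) * wk R 0
      = p * W R s * (Xi R A * B.u (C 0 0)) * sm R hO C' * wk R 0 := by rw [hsC]; group
    _ = p * (W R s * Xi R Q2⁻¹ * (W R s)⁻¹) * (W R s * Lk R l (rx 0 1 (C1 0 0)) * (Xi R (pm (swap 0 l)) * wk R 0)) *
          ((wk R 0)⁻¹ * sm R hO C2 * wk R 0) * ((wk R 0)⁻¹ * Xi R A0 * wk R 0) *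
          ((wk R 0)⁻¹ * sm R hO C' * wk R 0) := by rw [key]; group
    _ = p * (W R s * Xi R Q2⁻¹ * (W R s)⁻¹) * (W R s * Lk R l (rx 0 1 (C1 0 0)) * wk R l) *
          Xi R (pm (swap 0 l)) *
          ((wk R 0)⁻¹ * sm R hO C2 * wk R 0) * ((wk R 0)⁻¹ * Xi R A0 * wk R 0) *
          ((wk R 0)⁻¹ * sm R hO C' * wk R 0) := by rw [hπw]; group
    _ = _ := by rw [e]; group

theorem cells_top (hG : Subgroup.closure (Set.range B.Φ ∪ Set.range B.L) = ⊤) (x : G) : x ∈ cells R hO := by
  let K : Set G := {y | ∀ z ∈ cells R hO, z * y ∈ cells R hO ∧ z * y⁻¹ ∈ cells R hO}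
  have hP : ∀ y ∈ P R hO, y ∈ K := fun y hy z hz =>
    ⟨cells_mul_P R hO hz hy, cells_mul_P R hO hz (inv_mem hy)⟩
  have hw : wk R 0 ∈ K := fun z hz => ⟨cells_w0 R hO hz, by
    rw [w0_inv R hO, ← mul_assoc]; exact cells_mul_P R hO (cells_w0 R hO hz) (Xi_mem R hO _)⟩
  have hK : ∀ a ∈ K, ∀ b ∈ K, a * b ∈ K := fun a ha b hb z hz => by
    refine ⟨?_, ?_⟩
    · rw [← mul_assoc]; exact (hb _ (ha z hz).1).1
    · rw [_root_.mul_inv_rev, ← mul_assoc]; exact (ha _ (hb z hz).2).2
  let Ks : Subgroup G :=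
    { carrier := K
      one_mem' := hP 1 (one_mem _)
      mul_mem' := fun {a b} ha hb => hK a ha b hb
      inv_mem' := fun {a} ha z hz => by rw [inv_inv]; exact (ha z hz).symm }
  have hL : ∀ y, B.L y ∈ Ks := by
    intro y
    have hle : (⊤ : Subgroup SL(2, F)) ≤ Ks.comap B.L := by
      rw [← H92.sl2_closure_sx_sy, Subgroup.closure_le]
      have hx : ∀ t : F, B.L (H92.sx t) ∈ Ks := fun t => by
        rw [← rx2_upper]; exact hP _ (by rw [show B.L (rx 0 1 t) = T R (ev 0) t by rw [T_ev0 R hO]; rfl]; exact T_mem_P R hO _ _)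
      have hs : B.L H92.sw ∈ Ks := by
        have := hw; rwa [show wk R 0 = B.L H92.sw by rw [wk, Lk_zero]] at this
      rintro _ (⟨t, rfl⟩ | ⟨t, rfl⟩)
      · exact hx t
      · show B.L (H92.sy t) ∈ Ks
        rw [H92.sy_eq, map_mul, map_mul, map_mul, map_mul]
        exact mul_mem (mul_mem hs (hx t)) (mul_mem (mul_mem hs hs) hs)
    exact hle (Subgroup.mem_top y)
  have htop : x ∈ Ks := by
    refine (Subgroup.closure_le Ks).2 ?_ (hG ▸ Subgroup.mem_top x)
    rintro _ (⟨S, rfl⟩ | ⟨y, rfl⟩)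
    · exact hP _ (by rw [← Xi_toGL R]; exact Xi_mem R hO _)
    · exact hL y
  have h1 : (1 : G) ∈ cells R hO :=
    ⟨1, 1, 0, one_mem _, one_mem _, Nat.zero_le _, by rw [show seg M 0 = ∅ by simp [seg], W_empty]; group⟩
  simpa using (htop 1 h1).1

theorem f_Xi (f : G →* Spm) (hfΦ : ∀ S : SL(M + 2, F), f (B.Φ S) = levS S)
    (hfL : ∀ y : SL(2, F), f (B.L y) = iota (0 : Fin (M + 2)) y) (A : GLn) : f (Xi R A) = lev A := by
  have key : (⊤ : Subgroup GLn) ≤ MonoidHom.eqLocus (f.comp (Xi R)) lev := by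
    rw [← gl_closure, Subgroup.closure_le]
    rintro A (⟨i, j, t, hij, rfl⟩ | ⟨c, rfl⟩)
    · show f (Xi R _) = _
      rw [Xi_xg, hfΦ]; rfl
    · show f (Xi R _) = _
      rw [Xi_dg0, ← iota_torHom]; exact hfL _
  exact key (Subgroup.mem_top A)

theorem f_T (f : G →* Spm) (hfΦ : ∀ S : SL(M + 2, F), f (B.Φ S) = levS S)
    (hfL : ∀ y : SL(2, F), f (B.L y) = iota (0 : Fin (M + 2)) y) (v : Vn) (t : F) : f (T R v t) = sym (t • outer v) (outer_isSymm t v) := by
  rcases eq_or_ne v 0 with rfl | hv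
  · rw [T, if_pos rfl, map_one, ← sym_zero]
    exact sym_congr (by simp [outer])
  · rw [T, if_neg hv, map_mul, map_mul, map_inv, f_Xi R hO f hfΦ hfL, SpBase.u, hfL, iota_sx]
    refine (lev_mul_sym _ _ _).trans (sym_congr ?_)
    rw [← outer_ev, conj_outer, rep_spec hv]

theorem f_sm (f : G →* Spm) (hfΦ : ∀ S : SL(M + 2, F), f (B.Φ S) = levS S)
    (hfL : ∀ y : SL(2, F), f (B.L y) = iota (0 : Fin (M + 2)) y) (C : Mn) (hC : C.IsSymm) : f (sm R hO C) = sym C hC := by
  refine (sym_ind (fun C => ∀ hC : C.IsSymm, f (sm R hO C) = sym C hC) ?_ ?_ ?_ ?_ C hC) hC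
  · intro h
    rw [sm_zero, map_one, ← sym_zero]
  · intro A A' h1 h2 hA hA' h
    rw [sm_add, map_mul, h1 hA, h2 hA', sym_add]
  · intro l t h
    rw [sm_single, f_T R hO f hfΦ hfL]
    exact sym_congr (outer_ev l t)
  · intro j k c hjk h
    have e := pair_eq_outer (F := F) j k c
    rw [show sm R hO (pair j k c) = sm R hO ((1 : F) • outer (ev k + c • ev j : Vn) +
      ((-1 : F) • outer (ev k : Vn) + (-(c ^ 2)) • outer (ev j : Vn))) by rw [← e],
      sm_add, sm_add, sm_T, sm_T, sm_T, map_mul, map_mul, f_T R hO f hfΦ hfL, f_T R hO f hfΦ hfL,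
      f_T R hO f hfΦ hfL, sym_add, sym_add]
    exact sym_congr e.symm

theorem f_P (f : G →* Spm) (hfΦ : ∀ S : SL(M + 2, F), f (B.Φ S) = levS S)
    (hfL : ∀ y : SL(2, F), f (B.L y) = iota (0 : Fin (M + 2)) y) {x : G} (hx : x ∈ P R hO) : (f x : M2).toBlocks₂₁ = 0 ∧ (f x = 1 → x = 1) := by
  obtain ⟨A, C, hC, rfl⟩ := hx
  have e : ((f (Xi R A * sm R hO C) : Spm) : M2) =
      Matrix.fromBlocks (A : Mn) ((A : Mn) * C) 0 ((A⁻¹ : GLn) : Mn)ᵀ := by
    rw [map_mul, f_Xi R hO f hfΦ hfL, f_sm R hO f hfΦ hfL C hC, Submonoid.coe_mul, coe_lev, coe_sym,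
      Matrix.fromBlocks_multiply]
    simp
  refine ⟨by rw [e, Matrix.toBlocks_fromBlocks₂₁], fun h => ?_⟩
  rw [h, Submonoid.coe_one, ← Matrix.fromBlocks_one, Matrix.fromBlocks_inj] at e
  obtain ⟨h1, h2, -, -⟩ := e
  have hA : A = 1 := Units.ext h1.symm
  subst hA
  rw [Units.val_one, Matrix.one_mul] at h2
  rw [← h2, map_one, sm_zero, mul_one]

theorem f_wk (f : G →* Spm) (hfΦ : ∀ S : SL(M + 2, F), f (B.Φ S) = levS S)
    (hfL : ∀ y : SL(2, F), f (B.L y) = iota (0 : Fin (M + 2)) y) (k : Fin (M + 2)) (a : Fin (M + 2)) :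
    ((f (wk R k) : Spm) : M2) *ᵥ bl a = (if a = k then -(br a) else bl a) ∧
    (a ≠ k → ((f (wk R k) : Spm) : M2) *ᵥ br a = br a) := by
  have e : ((f (wk R k) : Spm) : M2) = ((lev (pm (swap 0 k) : GLn) : Spm) : M2) * ((iota (0 : Fin (M + 2)) (H92.sw : SL(2, F)) : Spm) : M2) *
      ((lev (pm (swap 0 k) : GLn) : Spm) : M2) := by
    rw [wk, Lk_apply, map_mul, map_mul, map_inv, hfL, f_Xi R hO f hfΦ hfL, ← map_inv, pm_inv, swap_inv,
      Submonoid.coe_mul, Submonoid.coe_mul]
  constructor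
  · rw [e, ← Matrix.mulVec_mulVec, ← Matrix.mulVec_mulVec, lev_pm_inl, iota_sw_inl]
    by_cases ha : a = k
    · subst ha
      rw [swap_apply_right, if_pos rfl, if_pos rfl, Matrix.mulVec_neg, lev_pm_inr, swap_apply_left]
    · have : swap 0 k a ≠ 0 := fun h => ha (by
        have := congrArg (swap 0 k) h
        rwa [swap_apply_self, swap_apply_left] at this)
      rw [if_neg this, if_neg ha, lev_pm_inl, swap_apply_self]
  · intro ha
    have : swap 0 k a ≠ 0 := fun h => ha (by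
      have := congrArg (swap 0 k) h
      rwa [swap_apply_self, swap_apply_left] at this)
    rw [e, ← Matrix.mulVec_mulVec, ← Matrix.mulVec_mulVec, lev_pm_inr, iota_sw_inr _ this, lev_pm_inr,
      swap_apply_self]

theorem f_W (f : G →* Spm) (hfΦ : ∀ S : SL(M + 2, F), f (B.Φ S) = levS S)
    (hfL : ∀ y : SL(2, F), f (B.L y) = iota (0 : Fin (M + 2)) y) (s : Finset (Fin (M + 2))) : ∀ a,
    ((f (W R s) : Spm) : M2) *ᵥ bl a = (if a ∈ s then -(br a) else bl a) ∧
    (a ∉ s → ((f (W R s) : Spm) : M2) *ᵥ br a = br a) := by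
  induction s using Finset.induction_on with
  | empty =>
    intro a
    rw [W_empty R, map_one, Submonoid.coe_one]
    refine ⟨?_, fun _ => Matrix.one_mulVec _⟩
    rw [if_neg (Finset.notMem_empty a)]
    exact Matrix.one_mulVec _
  | @insert l s hls ih =>
    intro a
    rw [W_insert R hls, map_mul, Submonoid.coe_mul, ← Matrix.mulVec_mulVec, ← Matrix.mulVec_mulVec,
      (f_wk R hO f hfΦ hfL l a).1]
    refine ⟨?_, fun ha => ?_⟩
    · by_cases hal : a = l
      · subst hal
        rw [if_pos rfl, if_pos (Finset.mem_insert_self _ _), Matrix.mulVec_neg, (ih a).2 hls]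
      · rw [if_neg hal, (ih a).1]
        simp [hal]
    · rw [Finset.mem_insert, not_or] at ha
      rw [(f_wk R hO f hfΦ hfL l a).2 ha.1, (ih a).2 ha.2]

theorem bijective (f : G →* Spm) (hfΦ : ∀ S : SL(M + 2, F), f (B.Φ S) = levS S)
    (hfL : ∀ y : SL(2, F), f (B.L y) = iota (0 : Fin (M + 2)) y) (hG : Subgroup.closure (Set.range B.Φ ∪ Set.range B.L) = ⊤) : Function.Bijective f := by
  refine ⟨(injective_iff_map_eq_one f).2 fun x hx => ?_, ?_⟩
  · obtain ⟨p, p', k, hp, hp', -, rfl⟩ := cells_top R hO hG x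
    have hW : f (W R (seg M k)) = f (p⁻¹ * p'⁻¹) := by
      rw [map_mul, map_mul, mul_eq_one_iff_eq_inv, ← eq_inv_mul_iff_mul_eq] at hx
      rw [hx, map_mul, map_inv, map_inv]
    have hk : seg M k = ∅ := by
      by_contra hne
      obtain ⟨l, hl⟩ := Finset.nonempty_iff_ne_empty.2 hne
      have h1 := congrFun ((f_W R hO f hfΦ hfL (seg M k) l).1) (Sum.inr l)
      rw [if_pos hl, hW] at h1
      have h2 := congrFun (congrFun (f_P R hO f hfΦ hfL (mul_mem (inv_mem hp) (inv_mem hp'))).1 l) l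
      simp only [Matrix.mulVec_single_one, Matrix.col_apply] at h1
      rw [Matrix.toBlocks₂₁, Matrix.of_apply, h1] at h2
      simp at h2
    rw [hk, W_empty, mul_one] at hx ⊢
    exact (f_P R hO f hfΦ hfL (mul_mem hp hp')).2 hx
  · rw [← MonoidHom.range_eq_top]
    have hlev : ∀ A : GLn, lev A ∈ f.range := fun A => ⟨_, f_Xi R hO f hfΦ hfL A⟩
    have hi : ∀ (l : Fin (M + 2)) (t : F), sym (Matrix.single l l t) (Matrix.transpose_single _ _ _) ∈ f.range :=
      fun l t => ⟨T R (ev l) t, (f_T R hO f hfΦ hfL _ t).trans (sym_congr (outer_ev l t))⟩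
    refine Cfsg.Agent.H2.SpTwoGen.eq_top_of_steps (by omega) _ (fun i c => ?_) (fun i c => ?_) (fun i j _ x hxf hxj _ => ?_)
    · convert hi i c using 1
      apply Cfsg.Agent.H2.ext_of_mulVec
      intro x
      rw [Cfsg.Agent.H2.SpTwoGen.transv_mulVec, Cfsg.Agent.H2.SpTwoGen.form_ee]
      show _ = Matrix.fromBlocks 1 (Matrix.single i i c) 0 1 *ᵥ x
      rw [Matrix.fromBlocks_mulVec]
      funext y
      rcases y with y | y <;>
        simp [-Matrix.mulVec_single, Cfsg.Agent.H2.SpTwoGen.ee, Matrix.single_mulVec_eq, Pi.single_apply] <;> split_ifs <;> first | ring1 | grind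
    · have hlow : Cfsg.Agent.H58.PSpFusion.low (Matrix.single i i (-c)) (Matrix.transpose_single _ _ _) ∈ f.range := by
        refine ⟨wk R i * T R (ev i) c * (wk R i)⁻¹, ?_⟩
        have e : wk R i * T R (ev i) c * (wk R i)⁻¹ = Lk R i (H92.sy c) := by
          rw [T_ev, wk, ← map_inv, ← map_mul, ← map_mul, rx2_upper]
          congr 1
          rw [H92.sy_eq, show (H92.sw : SL(2, F))⁻¹ = H92.sw * H92.sw * H92.sw from inv_eq_of_mul_eq_one_right (by
            rw [← mul_assoc, ← mul_assoc]; exact H92.sw_mul_sw_mul_sw_mul_sw)]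
        rw [e, Lk_apply, map_mul, map_mul, map_inv, hfL, f_Xi R hO f hfΦ hfL]
        rw [mul_inv_eq_iff_eq_mul]
        apply Subtype.ext
        rw [Submonoid.coe_mul, Submonoid.coe_mul, coe_lev, coe_iota,
          show ((Cfsg.Agent.H58.PSpFusion.low (Matrix.single i i (-c)) (Matrix.transpose_single _ _ _) : Spm) : M2) =
            Matrix.fromBlocks 1 0 (Matrix.single i i (-c)) 1 from rfl,
          Matrix.fromBlocks_multiply, Matrix.fromBlocks_multiply]
        have hP : ((pm (swap 0 i) : GLn) : Mn) = (swap 0 i).permMatrix F := by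
          show (swap 0 i)⁻¹.permMatrix F = _
          rw [swap_inv]
        have hPi : ((((pm (swap 0 i) : GLn))⁻¹ : GLn) : Mn)ᵀ = (swap 0 i).permMatrix F := by
          rw [show (((pm (swap 0 i) : GLn)⁻¹ : GLn) : Mn) = (swap 0 i).permMatrix F from rfl,
            Matrix.transpose_permMatrix, swap_inv]
        rw [hP, hPi]
        simp only [H92.sy_00, H92.sy_01, H92.sy_10, H92.sy_11, sub_self, Matrix.single_zero, add_zero,
          mul_zero, zero_mul, zero_add, mul_one, one_mul]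
        congr 1
        ext a b
        simp [Equiv.Perm.permMatrix, PEquiv.toMatrix_toPEquiv_mul, PEquiv.mul_toMatrix_toPEquiv, Matrix.single,
          Equiv.swap_apply_def]
        grind
      convert hlow using 1
      apply Cfsg.Agent.H2.ext_of_mulVec
      intro x
      rw [Cfsg.Agent.H2.SpTwoGen.transv_mulVec, Cfsg.Agent.H2.SpTwoGen.form_ff]
      show _ = Matrix.fromBlocks 1 0 (Matrix.single i i (-c)) 1 *ᵥ x
      rw [Matrix.fromBlocks_mulVec]
      funext y
      rcases y with y | y <;>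
        simp [-Matrix.mulVec_single, Cfsg.Agent.H2.SpTwoGen.ff, Matrix.single_mulVec_eq, Pi.single_apply] <;> split_ifs <;> first | ring1 | grind
    · let y : Vn := fun a => x (Sum.inl a)
      let z : Vn := Function.update (Function.update y i 1) j 0
      have hy : y ≠ 0 := fun h => by
        have := congrFun h j
        simp [y, hxj] at this
      have hij : i ≠ j := fun h => by subst h; omega
      have hz : z ≠ 0 := fun h => by
        have := congrFun h i
        simp [z, Function.update_of_ne hij] at this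
      obtain ⟨A, hA⟩ := exists_first (0 : Fin (M + 2)) hy
      obtain ⟨A', hA'⟩ := exists_first (0 : Fin (M + 2)) hz
      refine ⟨lev (A' * A⁻¹), hlev _, ?_⟩
      rw [coe_lev, Matrix.fromBlocks_mulVec]
      have hxr : x ∘ Sum.inr = 0 := funext hxf
      have hAy : ap (A' * A⁻¹) y = z := by
        rw [← hA, ← ap_mul, inv_mul_cancel_right, hA']
      funext w
      rcases w with w | w
      · have := congrFun hAy w
        simp only [Sum.elim_inl, hxr, Matrix.zero_mulVec, add_zero, Pi.zero_apply]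
        show ap (A' * A⁻¹) y w = _
        rw [this]
        simp [z, y, Function.update_apply]
      · simp [hxr, Function.update_apply, hxf]

end SpBase

end Cfsg.Agent.H81.SpPres
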