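import Cfsg.Agent.H81.SpPres.SpSym

/-!
# Equivariance of the symmetric radical
-/

set_option autoImplicit false

namespace Cfsg.Agent.H81.SpPres

open Equiv Matrix Cfsg.Agent.H64.SLCover Cfsg.Agent.H81.SLnPres
open scoped MatrixGroups

variable {G : Type*} [Group G] {F : Type*} [Field F] {M : ℕ}

local notation "GLn" => GL (Fin (M + 2)) F
local notation "Vn" => (Fin (M + 2) → F)
local notation "Mn" => Matrix (Fin (M + 2)) (Fin (M + 2)) F

theorem pair_eq_outer (j k : Fin (M + 2)) (c : F) :
    pair j k c = (1 : F) • outer (ev k + c • ev j : Vn) + ((-1 : F) • outer (ev k : Vn) + (-(c ^ 2)) • outer (ev j : Vn)) := by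
  have h := outer_plane j k (1 : F) 1 c
  rw [one_smul F (ev k : Vn)] at h
  rw [h, outer_ev, outer_ev]
  simp only [one_mul, one_pow]
  rw [show Matrix.single k k (-1 : F) = -Matrix.single k k (1 : F) from (Matrix.single_neg k k (1 : F)).symm,
    show Matrix.single j j (-(c ^ 2)) = -Matrix.single j j (c ^ 2) from (Matrix.single_neg j j (c ^ 2)).symm]
  abel

namespace SpBase

variable {B : SpBase G F M} (R : B.Rels) [Fintype F] (hO : B.Mix)

include R hO

/-- The map on symmetric matrices. -/
noncomputable def sm : Mn → G := Classical.choose (exists_symMap R hO)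

theorem sm_add (A A' : Mn) : sm R hO (A + A') = sm R hO A * sm R hO A' :=
  (Classical.choose_spec (exists_symMap R hO)).1 A A'

theorem sm_mem (A : Mn) : sm R hO A ∈ U R :=
  (Classical.choose_spec (exists_symMap R hO)).2.1 A

theorem sm_single (l : Fin (M + 2)) (t : F) : sm R hO (Matrix.single l l t) = T R (ev l) t :=
  (Classical.choose_spec (exists_symMap R hO)).2.2.1 l t

theorem sm_pair {j k : Fin (M + 2)} (c : F) (h : j ≠ k) : sm R hO (pair j k c) = oh R j k c :=
  (Classical.choose_spec (exists_symMap R hO)).2.2.2 j k c h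

theorem sm_zero : sm R hO 0 = 1 := by
  have := sm_add R hO 0 0
  rw [add_zero] at this
  exact mul_eq_right.mp this.symm

theorem sm_smul_single (l : Fin (M + 2)) (t : F) : sm R hO (t • outer (ev l : Vn)) = T R (ev l) t := by
  rw [outer_ev, sm_single]

theorem sm_plane (j k : Fin (M + 2)) (a c t : F) (h : j ≠ k) :
    sm R hO (t • outer (a • ev k + c • ev j : Vn)) = T R (a • ev k + c • ev j) t := by
  rw [plane R hO h, outer_plane, sm_add, sm_add, sm_single, sm_single, sm_pair R hO _ h]

theorem sm_plane₁ (j k : Fin (M + 2)) (c t : F) (h : j ≠ k) :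
    sm R hO (t • outer (ev k + c • ev j : Vn)) = T R (ev k + c • ev j) t := by
  have := sm_plane R hO j k 1 c t h
  rwa [one_smul] at this

theorem sm_three {i j k : Fin (M + 2)} (hij : i ≠ j) (hjk : j ≠ k) (hik : i ≠ k) (p q a : F) :
    sm R hO (outer (p • ev k + q • ev j + (q * a) • ev i : Vn)) =
      T R (p • ev k + q • ev j + (q * a) • ev i) 1 := by
  have hvk : ap (xg i j a) (ev k) = (ev k : Vn) := by rw [ev, xg_single hij, if_neg hjk.symm]
  have hvj : ap (xg i j a) (ev j) = (ev j + a • ev i : Vn) := by rw [ev, xg_single hij, if_pos rfl]; rfl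
  have e : T R (p • ev k + q • ev j + (q * a) • ev i) 1 =
      T R (ev k) (p ^ 2) * (oh R i k (a * (p * q)) * oh R j k (p * q)) * T R (ev j + a • ev i) (q ^ 2) := by
    have h1 := plane R hO hjk p q 1
    simp only [one_mul] at h1
    have h2 := congrArg (fun z => Xi R (xg i j a) * z * (Xi R (xg i j a))⁻¹) h1
    simp only [T_conj, ap_add, ap_smul, hvk, hvj, smul_add, smul_smul] at h2
    rw [add_assoc, h2]
    calc Xi R (xg i j a) * (T R (ev k) (p ^ 2) * oh R j k (p * q) * T R (ev j) (q ^ 2)) * (Xi R (xg i j a))⁻¹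
        = (Xi R (xg i j a) * T R (ev k) (p ^ 2) * (Xi R (xg i j a))⁻¹) *
          (Xi R (xg i j a) * oh R j k (p * q) * (Xi R (xg i j a))⁻¹) *
          (Xi R (xg i j a) * T R (ev j) (q ^ 2) * (Xi R (xg i j a))⁻¹) := by group
      _ = _ := by rw [T_conj, T_conj, oh_rowop R hO hij hjk hik, hvk, hvj]
  rw [e, outer_three, sm_add, sm_add, sm_add, sm_single, sm_pair R hO _ hjk, sm_pair R hO _ hik,
    sm_plane₁ R hO i j a _ hij, U_comm R hO (oh_mem R hO hjk _) (oh_mem R hO hik _)]

theorem sm_conj (A : GLn) (C : Mn) (hC : C.IsSymm) :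
    Xi R A * sm R hO C * (Xi R A)⁻¹ = sm R hO ((A : Mn) * C * (A : Mn)ᵀ) := by
  classical
  -- it suffices to treat generators on rank one matrices supported on two coordinates
  have reduce : ∀ A : GLn, (∀ l (t : F), sm R hO (t • outer (ap A (ev l : Vn))) = T R (ap A (ev l : Vn)) t) →
      (∀ (j k : Fin (M + 2)) (c : F), j ≠ k →
        sm R hO (outer (ap A (ev k + c • ev j : Vn))) = T R (ap A (ev k + c • ev j : Vn)) 1) →
      ∀ C : Mn, C.IsSymm → Xi R A * sm R hO C * (Xi R A)⁻¹ = sm R hO ((A : Mn) * C * (A : Mn)ᵀ) := by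
    intro A ha hb
    refine sym_ind _ ?_ ?_ ?_ ?_
    · simp [sm_zero R hO]
    · intro C C' h1 h2 _ _
      rw [Matrix.mul_add, Matrix.add_mul, sm_add, sm_add, ← h1, ← h2]
      group
    · intro l t
      rw [sm_single, T_conj, ← outer_ev, conj_outer, ha]
    · intro j k c hjk
      rw [sm_pair R hO _ hjk, pair_eq_outer, Matrix.mul_add, Matrix.mul_add, Matrix.add_mul, Matrix.add_mul,
        conj_outer, conj_outer, conj_outer, sm_add, sm_add, ha, ha, one_smul, hb j k c hjk, oh_formula R hO hjk]
      calc Xi R A * (T R (ev k + c • ev j) 1 * T R (ev k) (-1) * T R (ev j) (-(c ^ 2))) * (Xi R A)⁻¹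
          = (Xi R A * T R (ev k + c • ev j) 1 * (Xi R A)⁻¹) * ((Xi R A * T R (ev k) (-1) * (Xi R A)⁻¹) *
              (Xi R A * T R (ev j) (-(c ^ 2)) * (Xi R A)⁻¹)) := by group
        _ = _ := by rw [T_conj, T_conj, T_conj]
  let K : Subgroup GLn :=
    { carrier := {A | ∀ C : Mn, C.IsSymm → Xi R A * sm R hO C * (Xi R A)⁻¹ = sm R hO ((A : Mn) * C * (A : Mn)ᵀ)}
      one_mem' := fun C _ => by simp
      mul_mem' := fun {A A'} hA hA' C hC => by
        have hC' : ((A' : Mn) * C * (A' : Mn)ᵀ).IsSymm := by
          show _ = _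
          rw [Matrix.transpose_mul, Matrix.transpose_mul, Matrix.transpose_transpose, hC.eq, Matrix.mul_assoc]
        rw [map_mul, Units.val_mul, Matrix.transpose_mul,
          show (A : Mn) * (A' : Mn) * C * ((A' : Mn)ᵀ * (A : Mn)ᵀ) = (A : Mn) * ((A' : Mn) * C * (A' : Mn)ᵀ) * (A : Mn)ᵀ by
            simp only [Matrix.mul_assoc],
          ← hA _ hC', ← hA' C hC]
        group
      inv_mem' := fun {A} hA C hC => by
        have hC' : (((A⁻¹ : GLn) : Mn) * C * ((A⁻¹ : GLn) : Mn)ᵀ).IsSymm := by
          show _ = _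
          rw [Matrix.transpose_mul, Matrix.transpose_mul, Matrix.transpose_transpose, hC.eq, Matrix.mul_assoc]
        have h := hA _ hC'
        have e : (A : Mn) * (((A⁻¹ : GLn) : Mn) * C * ((A⁻¹ : GLn) : Mn)ᵀ) * (A : Mn)ᵀ = C := by
          have h1 : (A : Mn) * ((A⁻¹ : GLn) : Mn) = 1 := by rw [← Units.val_mul, mul_inv_cancel, Units.val_one]
          calc (A : Mn) * (((A⁻¹ : GLn) : Mn) * C * ((A⁻¹ : GLn) : Mn)ᵀ) * (A : Mn)ᵀ
              = ((A : Mn) * ((A⁻¹ : GLn) : Mn)) * C * (((A : Mn) * ((A⁻¹ : GLn) : Mn)))ᵀ := by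
                rw [Matrix.transpose_mul]; simp only [Matrix.mul_assoc]
            _ = C := by rw [h1, Matrix.transpose_one, Matrix.one_mul, Matrix.mul_one]
        rw [e] at h
        rw [← h, map_inv]
        group }
  suffices hK : K = ⊤ from (show A ∈ K by rw [hK]; trivial) C hC
  rw [eq_top_iff, ← gl_closure, Subgroup.closure_le]
  rintro A (⟨i, j, a, hij, rfl⟩ | ⟨c, rfl⟩)
  · refine reduce _ (fun l t => ?_) (fun l k c hlk => ?_)
    · by_cases hl : l = j
      · subst hl
        rw [show ap (xg i l a) (ev l) = (ev l + a • ev i : Vn) by rw [ev, xg_single hij, if_pos rfl]; rfl]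
        exact sm_plane₁ R hO i l a t hij
      · rw [show ap (xg i j a) (ev l) = (ev l : Vn) by rw [ev, xg_single hij, if_neg hl]]
        exact sm_smul_single R hO l t
    · have fk : k ≠ j → ap (xg i j a) (ev k) = (ev k : Vn) := fun h => by rw [ev, xg_single hij, if_neg h]
      have fl : l ≠ j → ap (xg i j a) (ev l) = (ev l : Vn) := fun h => by rw [ev, xg_single hij, if_neg h]
      have fj : ap (xg i j a) (ev j) = (ev j + a • ev i : Vn) := by rw [ev, xg_single hij, if_pos rfl]; rfl
      rw [ap_add, ap_smul]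
      by_cases hl : l = j
      · subst hl
        rw [fk hlk.symm, fj]
        by_cases hik : i = k
        · subst hik
          rw [show (ev i + c • (ev l + a • ev i) : Vn) = (1 + c * a) • ev i + c • ev l by module]
          have := sm_plane R hO l i (1 + c * a) c 1 hij.symm
          rwa [one_smul] at this
        · rw [show (ev k + c • (ev l + a • ev i) : Vn) = (1 : F) • ev k + c • ev l + (c * a) • ev i by module]
          exact sm_three R hO hij hlk hik 1 c a
      · by_cases hk : k = j
        · subst hk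
          rw [fl hl, fj]
          by_cases hil : i = l
          · subst hil
            rw [show (ev k + a • ev i + c • ev i : Vn) = ev k + (a + c) • ev i by module]
            have := sm_plane₁ R hO i k (a + c) 1 hij
            rwa [one_smul] at this
          · rw [show (ev k + a • ev i + c • ev l : Vn) = c • ev l + (1 : F) • ev k + ((1 : F) * a) • ev i by module]
            exact sm_three R hO hij hlk.symm hil c 1 a
        · rw [fk hk, fl hl]
          have := sm_plane₁ R hO l k c 1 hlk
          rwa [one_smul] at this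
  · refine reduce _ (fun l t => ?_) (fun l k x hlk => ?_)
    · rw [show ap (dg 0 c) (ev l) = ((if l = 0 then (c : F) else 1) • ev l : Vn) by rw [ev, dg_single]]
      rw [T_smul, ← sm_smul_single R hO l]
      congr 1
      rw [outer, outer, Matrix.smul_vecMulVec, Matrix.vecMulVec_smul, smul_smul, smul_smul]
      congr 1
      ring
    · have hz : ∀ z, ap (dg 0 c) (ev z) = ((if z = 0 then (c : F) else 1) • ev z : Vn) :=
        fun z => by rw [ev, dg_single]
      rw [ap_add, ap_smul, hz k, hz l, smul_smul]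
      have := sm_plane R hO l k (if k = 0 then (c : F) else 1) (x * if l = 0 then (c : F) else 1) 1 hlk
      rwa [one_smul] at this

theorem sm_T (v : Vn) (t : F) : sm R hO (t • outer v) = T R v t := by
  rcases eq_or_ne v 0 with rfl | hv
  · rw [show outer (0 : Vn) = 0 by simp [outer], smul_zero, sm_zero, T, if_pos rfl]
  have h := sm_conj R hO (rep v) (Matrix.single 0 0 t) (Matrix.transpose_single _ _ _)
  rw [sm_single, T_conj, ← outer_ev, conj_outer, rep_spec hv] at h
  exact h.symm

end SpBase

end Cfsg.Agent.H81.SpPres
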