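import Cfsg.Agent.H81.SpPres.SpAssemble
import Cfsg.Agent.H81.SLnPres.Cases
import Cfsg.Agent.H81.SLnPres.SL3Assemble
import Cfsg.Agent.H2.Center
import Cfsg.Agent.S2286

/-!
# The cases
-/

set_option autoImplicit false

namespace Cfsg.Agent.H81.SpPres

open Cfsg Cfsg.Agent.H81.SLnPres
open scoped MatrixGroups

variable {F : Type*} [Field F]

theorem psp_of_sp {κ : Type*} (m N : ℕ) (hm : 1 ≤ m) (R : Finset (FreeGroup κ)) (hR : R.card ≤ N)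
    (e : PresentedGroup (↑R : Set (FreeGroup κ)) ≃* Matrix.symplecticGroup (Fin m) F) :
    ∃ R' : Finset (FreeGroup κ), R'.card ≤ N + 1 ∧
      Nonempty (PresentedGroup (↑R' : Set (FreeGroup κ)) ≃* Cfsg.PSp m F) := by
  classical
  let z : Matrix.symplecticGroup (Fin m) F := ⟨-1, SymplecticGroup.neg_mem (Submonoid.one_mem _)⟩
  have hz : Subgroup.center (Matrix.symplecticGroup (Fin m) F) = Subgroup.zpowers z := by
    refine le_antisymm (fun g hg => ?_) ((Subgroup.zpowers_le).2 ((Cfsg.Agent.H2.mem_center_iff_eq hm z).2 (Or.inr rfl)))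
    rcases (Cfsg.Agent.H2.mem_center_iff_eq hm g).1 hg with h | h
    · rw [show g = 1 from Subtype.ext h]; exact one_mem _
    · rw [show g = z from Subtype.ext h]; exact Subgroup.mem_zpowers z
  obtain ⟨R', h, e'⟩ := pres_quotient R e _ ⟨z, hz⟩
  exact ⟨R', h.trans (by omega), e'⟩

theorem both_pad {κ : Type} [Fintype κ] [DecidableEq κ] (m k N N0 : ℕ) (hm : 1 ≤ m) (hk : Fintype.card κ ≤ k)
    (hN : N0 + (k - Fintype.card κ) ≤ N) (R : Finset (FreeGroup κ)) (hR : R.card ≤ N0)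
    (e : PresentedGroup (↑R : Set (FreeGroup κ)) ≃* Matrix.symplecticGroup (Fin m) F) :
    (∃ rels : Finset (FreeGroup (Fin k)), rels.card ≤ N ∧
      Nonempty (PresentedGroup (↑rels : Set (FreeGroup (Fin k))) ≃* Matrix.symplecticGroup (Fin m) F)) ∧
    (∃ rels : Finset (FreeGroup (Fin k)), rels.card ≤ N + 1 ∧
      Nonempty (PresentedGroup (↑rels : Set (FreeGroup (Fin k))) ≃* Cfsg.PSp m F)) := by
  refine ⟨pres_pad k N hk R (by omega) e, ?_⟩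
  obtain ⟨R', hR', ⟨e'⟩⟩ := psp_of_sp m N0 hm R hR e
  exact pres_pad k (N + 1) hk R' (by omega) e'

variable [Fintype F]

theorem sp4_pres : ∃ R : Finset (FreeGroup (Fin 3 ⊕ Fin 3)), R.card ≤ 32 ∧
    Nonempty (PresentedGroup (↑R : Set (FreeGroup (Fin 3 ⊕ Fin 3))) ≃* Matrix.symplecticGroup (Fin 2) F) := by
  obtain ⟨⟨R2, h2, ⟨eL⟩⟩, -⟩ := Cfsg.Agent.S2286.result (F := F)
  obtain ⟨R, hR, e⟩ := sp_pres (M := 0) R2 eL R2 eL ![(1 : SL(1, F)), 1] (by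
    rw [eq_top_iff]; intro x _
    have hx : x = 1 := by
      apply Subtype.ext
      ext i j
      have := x.2
      have h0 : ∀ a : Fin (0 + 1), a = 0 := fun a => Fin.ext (by omega)
      rw [h0 i, h0 j]
      simpa [Matrix.det_fin_one] using this
    rw [hx]; exact one_mem _)
  exact ⟨R, hR.trans (by omega), e⟩

theorem sp6_pres : ∃ R : Finset (FreeGroup ((Fin 3 ⊕ Unit) ⊕ Fin 3)), R.card ≤ 51 ∧
    Nonempty (PresentedGroup (↑R : Set (FreeGroup ((Fin 3 ⊕ Unit) ⊕ Fin 3))) ≃*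
      Matrix.symplecticGroup (Fin 3) F) := by
  obtain ⟨⟨R2, h2, ⟨eL⟩⟩, -⟩ := Cfsg.Agent.S2286.result (F := F)
  obtain ⟨RS, hS, ⟨eS⟩⟩ := sl3_pres (F := F)
  obtain ⟨x, y, hxy⟩ := exists_two_gen (F := F) 0
  obtain ⟨R, hR, e⟩ := sp_pres (M := 1) RS eS R2 eL ![x, y] (by rwa [Matrix.range_cons_cons_empty])
  exact ⟨R, hR.trans (by omega), e⟩

theorem sp8_pres : ∃ R : Finset (FreeGroup ((Fin 2 ⊕ Fin 2) ⊕ Fin 3)), R.card ≤ 42 ∧
    Nonempty (PresentedGroup (↑R : Set (FreeGroup ((Fin 2 ⊕ Fin 2) ⊕ Fin 3))) ≃*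
      Matrix.symplecticGroup (Fin 4) F) := by
  obtain ⟨⟨R2, h2, ⟨eL⟩⟩, -⟩ := Cfsg.Agent.S2286.result (F := F)
  obtain ⟨RS, hS, ⟨eS⟩⟩ := case_zero (F := F)
  obtain ⟨x, y, hxy⟩ := exists_two_gen (F := F) 1
  obtain ⟨R, hR, e⟩ := sp_pres (M := 2) RS eS R2 eL ![x, y] (by rwa [Matrix.range_cons_cons_empty])
  exact ⟨R, hR.trans (by omega), e⟩

theorem sp_big_pres (m : ℕ) (hm : 1 ≤ m) : ∃ R : Finset (FreeGroup ((Fin 3 ⊕ Fin 2) ⊕ Fin 3)), R.card ≤ 46 ∧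
    Nonempty (PresentedGroup (↑R : Set (FreeGroup ((Fin 3 ⊕ Fin 2) ⊕ Fin 3))) ≃*
      Matrix.symplecticGroup (Fin (m + 4)) F) := by
  obtain ⟨⟨R2, h2, ⟨eL⟩⟩, -⟩ := Cfsg.Agent.S2286.result (F := F)
  obtain ⟨RS, hS, ⟨eS⟩⟩ := case_pos (F := F) m hm
  obtain ⟨x, y, hxy⟩ := exists_two_gen (F := F) (m + 1)
  obtain ⟨R, hR, e⟩ := sp_pres (M := m + 2) RS eS R2 eL ![x, y] (by rwa [Matrix.range_cons_cons_empty])
  exact ⟨R, hR.trans (by omega), e⟩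

end Cfsg.Agent.H81.SpPres
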