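import Cfsg.Agent.H81.SpPres.SpBasic

/-!
# The symmetric matrices inside a group glued from `SL_m` and `SL₂`
-/

set_option autoImplicit false

namespace Cfsg.Agent.H81.SpPres

open Equiv Matrix Cfsg.Agent.H64.SLCover Cfsg.Agent.H81.SLnPres
open scoped MatrixGroups commutatorElement

variable {G : Type*} [Group G] {F : Type*} [Field F] {M : ℕ}

theorem rx2_upper (t : F) : rx (0 : Fin 2) 1 t = H92.sx t := by
  apply Subtype.ext
  rw [rx_coe (by decide)]
  ext i j; fin_cases i <;> fin_cases j <;> simp [H92.sx]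

theorem torHom_eq (c : Fˣ) : torHom c = Cfsg.Agent.H81.SLPres.hm (c : F) c.ne_zero := by
  apply Subtype.ext
  show Matrix.diagonal (dd 0 1 c) = _
  ext i j; fin_cases i <;> fin_cases j <;> simp [dd, Cfsg.Agent.H81.SLPres.hm]

theorem sw_torHom (c : Fˣ) : H92.sw * torHom c * (H92.sw : SL(2, F))⁻¹ = torHom c⁻¹ := by
  rw [map_inv, torHom_eq]
  exact Cfsg.Agent.H81.SLPres.img_tht (c : F) c.ne_zero

theorem sw_sw : (H92.sw : SL(2, F)) * H92.sw = torHom (-1) := by
  rw [torHom_eq]
  apply H92.sl2_ext <;> simp [H92.sl2_mul_apply]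

theorem sw_inv : (H92.sw : SL(2, F))⁻¹ = H92.sw * torHom (-1) := by
  rw [← sw_sw]
  refine inv_eq_of_mul_eq_one_right ?_
  rw [← mul_assoc, ← mul_assoc]
  exact H92.sw_mul_sw_mul_sw_mul_sw

theorem sw_sx_sw (b : F) (hb : b ≠ 0) : H92.sw * H92.sx b * H92.sw =
    H92.sx (-b⁻¹) * torHom (Units.mk0 (-b⁻¹) (neg_ne_zero.2 (inv_ne_zero hb))) * H92.sw * H92.sx (-b⁻¹) := by
  rw [torHom_eq]
  apply H92.sl2_ext <;> simp [H92.sl2_mul_apply] <;> field_simp <;> first | ring1 | simp

local notation "GLn" => GL (Fin (M + 2)) F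
local notation "Vn" => (Fin (M + 2) → F)
local notation "Mn" => Matrix (Fin (M + 2)) (Fin (M + 2)) F

/-- A symmetric pair of entries. -/
def pair (j k : Fin (M + 2)) (c : F) : Mn := Matrix.single j k c + Matrix.single k j c

/-- Regrouping two triples of commuting elements. -/
theorem shuffle {H : Type*} [Group H] {a b c a' b' c' : H} (hca : Commute c a') (hcb : Commute c b')
    (hba : Commute b a') : a * b * c * (a' * b' * c') = a * a' * (b * b') * (c * c') := by
  calc a * b * c * (a' * b' * c') = a * b * (c * a') * b' * c' := by group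
    _ = a * (b * a') * (c * b') * c' := by rw [hca.eq]; group
    _ = _ := by rw [hba.eq, hcb.eq]; group

/-- Induction over symmetric matrices. -/
theorem sym_ind (Q : Mn → Prop) (h0 : Q 0) (hadd : ∀ A A', Q A → Q A' → A.IsSymm → A'.IsSymm → Q (A + A'))
    (hdiag : ∀ l t, Q (Matrix.single l l t)) (hpair : ∀ j k c, j ≠ k → Q (pair j k c))
    (A : Mn) (hA : A.IsSymm) : Q A := by
  classical
  let piece : Fin (M + 2) × Fin (M + 2) → Mn := fun p =>
    if p.1 = p.2 then Matrix.single p.1 p.1 (A p.1 p.1) else if p.1 < p.2 then pair p.1 p.2 (A p.1 p.2) else 0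
  have hp : ∀ p, Q (piece p) ∧ (piece p).IsSymm := by
    intro p
    simp only [piece]
    split_ifs with h1 h2
    · exact ⟨hdiag _ _, Matrix.transpose_single _ _ _⟩
    · refine ⟨hpair _ _ _ h1, ?_⟩
      show (pair p.1 p.2 _)ᵀ = _
      rw [pair, Matrix.transpose_add, Matrix.transpose_single, Matrix.transpose_single]
      exact add_comm _ _
    · exact ⟨h0, Matrix.isSymm_zero⟩
  have hsum : ∀ s : Finset (Fin (M + 2) × Fin (M + 2)), Q (∑ p ∈ s, piece p) ∧ (∑ p ∈ s, piece p).IsSymm := by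
    intro s
    induction s using Finset.induction_on with
    | empty => rw [Finset.sum_empty]; exact ⟨h0, Matrix.isSymm_zero⟩
    | @insert p s hps ih =>
      rw [Finset.sum_insert hps]
      exact ⟨hadd _ _ (hp p).1 ih.1 (hp p).2 ih.2, (hp p).2.add ih.2⟩
  have e : A = ∑ p, piece p := by
    ext a b
    rw [Matrix.sum_apply]
    rcases lt_trichotomy a b with h | h | h
    · rw [Finset.sum_eq_single (a, b)]
      · simp [piece, pair, h.ne, h, Matrix.single]
      · intro p _ hp
        simp only [piece]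
        split_ifs with h1 h2
        · simp [Matrix.single]; intro e1 e2; exact absurd (e1.symm.trans e2) h.ne
        · simp only [pair, Matrix.add_apply, Matrix.single, Matrix.of_apply]
          rw [if_neg, if_neg, add_zero]
          · rintro ⟨rfl, rfl⟩; exact lt_asymm h h2
          · rintro ⟨rfl, rfl⟩; exact hp rfl
        · rfl
      · simp
    · subst h
      rw [Finset.sum_eq_single (a, a)]
      · simp [piece, Matrix.single]
      · intro p _ hp
        simp only [piece]
        split_ifs with h1 h2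
        · simp [Matrix.single]; intro e; exact absurd (Prod.ext e (h1 ▸ e)) hp
        · simp only [pair, Matrix.add_apply, Matrix.single, Matrix.of_apply]
          rw [if_neg (fun e => h1 (e.1.trans e.2.symm)), if_neg (fun e => h1 (e.2.trans e.1.symm)), add_zero]
        · rfl
      · simp
    · rw [Finset.sum_eq_single (b, a)]
      · simp [piece, pair, h.ne, h, Matrix.single]
        exact (hA.apply b a)
      · intro p _ hp
        simp only [piece]
        split_ifs with h1 h2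
        · simp [Matrix.single]; intro e1 e2; exact absurd (e1.symm.trans e2) h.ne'
        · simp only [pair, Matrix.add_apply, Matrix.single, Matrix.of_apply]
          rw [if_neg, if_neg, add_zero]
          · rintro ⟨rfl, rfl⟩; exact hp rfl
          · rintro ⟨rfl, rfl⟩; exact lt_asymm h h2
        · rfl
      · simp
  rw [e]
  exact (hsum _).1

/-- The quadratic form matrix of a vector. -/
def outer (v : Vn) : Mn := Matrix.vecMulVec v v

theorem outer_isSymm (t : F) (v : Vn) : (t • outer v).IsSymm := by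
  show (t • outer v)ᵀ = _
  rw [Matrix.transpose_smul, outer, Matrix.transpose_vecMulVec]

theorem conj_outer (A : GLn) (t : F) (v : Vn) :
    (A : Mn) * (t • outer v) * (A : Mn)ᵀ = t • outer (ap A v) := by
  rw [Matrix.mul_smul, Matrix.smul_mul, outer, Matrix.mul_vecMulVec, Matrix.vecMulVec_mul,
    Matrix.vecMul_transpose]
  rfl

theorem outer_ev (l : Fin (M + 2)) (t : F) : t • outer (ev l : Vn) = Matrix.single l l t := by
  ext a b
  simp [outer, Matrix.vecMulVec, ev, Matrix.single, Pi.single_apply]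
  grind

theorem outer_plane (j k : Fin (M + 2)) (t a c : F) : t • outer (a • ev k + c • ev j : Vn) =
    Matrix.single k k (t * a ^ 2) + pair j k (t * a * c) + Matrix.single j j (t * c ^ 2) := by
  ext x y
  simp [outer, pair, Matrix.vecMulVec, ev, Matrix.single, Pi.single_apply]
  grind

theorem outer_three (i j k : Fin (M + 2)) (p q a : F) :
    outer (p • ev k + q • ev j + (q * a) • ev i : Vn) =
    Matrix.single k k (p ^ 2) + (pair j k (p * q) + pair i k (a * (p * q))) +
      ((q ^ 2) • outer (ev j + a • ev i : Vn)) := by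
  ext x y
  simp [outer, pair, Matrix.vecMulVec, ev, Matrix.single, Pi.single_apply]
  grind

namespace SpBase

variable (B : SpBase G F M)

/-- The relation identifying a short root element. -/
def Mix : Prop :=
  B.L H92.sw * B.Φ (rx 1 0 (-1)) * (B.L H92.sw)⁻¹ =
    (B.Φ (rx 1 0 1) * B.u 1 * (B.Φ (rx 1 0 1))⁻¹) * B.u (-1) *
      (B.xi (pm (swap 0 1)) * B.u (-1) * (B.xi (pm (swap 0 1)))⁻¹)

variable {B} (R : B.Rels)

include R

/-- The long root `SL₂` at the coordinate `k`. -/
def Lk (k : Fin (M + 2)) : SL(2, F) →* G := (MulAut.conj (Xi R (pm (swap 0 k)))).toMonoidHom.comp B.L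

theorem Lk_apply (k : Fin (M + 2)) (y : SL(2, F)) :
    Lk R k y = Xi R (pm (swap 0 k)) * B.L y * (Xi R (pm (swap 0 k)))⁻¹ := rfl

theorem Lk_zero (y : SL(2, F)) : Lk R 0 y = B.L y := by
  rw [Lk_apply, swap_self]
  show Xi R (pm 1) * _ * (Xi R (pm 1))⁻¹ = _
  rw [show (pm 1 : GLn) = 1 from gl_ext fun a => by rw [pm_single, ap_one]; rfl, map_one]
  group

theorem blk_pm {σ : Perm (Fin (M + 2))} (h : σ 0 = 0) : Blk (pm σ : GLn) := by
  refine ⟨by rw [ev, pm_single, h], fun a ha => ?_⟩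
  rw [ev, pm_single, Pi.single_apply, if_neg]
  intro e
  exact ha (σ.injective (e.symm.trans h.symm))

theorem blk_dg {i : Fin (M + 2)} (h : i ≠ 0) (c : Fˣ) : Blk (dg i c : GLn) := by
  refine ⟨by rw [ev, dg_single, if_neg h.symm, one_smul], fun a ha => ?_⟩
  rw [ev, dg_single, Pi.smul_apply, Pi.single_apply, if_neg ha.symm, smul_zero]

theorem blk_xg {i j : Fin (M + 2)} (hij : i ≠ j) (hi : i ≠ 0) (hj : j ≠ 0) (c : F) :
    Blk (xg i j c : GLn) := by
  refine ⟨by rw [ev, xg_single hij, if_neg hj.symm], fun a ha => ?_⟩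
  rw [ev, xg_single hij]
  split_ifs with h
  · simp [hi.symm, hj.symm]
  · simp [ha.symm]

theorem Lk_pm (σ : Perm (Fin (M + 2))) (k : Fin (M + 2)) (y : SL(2, F)) :
    Xi R (pm σ) * Lk R k y * (Xi R (pm σ))⁻¹ = Lk R (σ k) y := by
  let ρ := swap 0 (σ k) * σ * swap 0 k
  have hρ : ρ 0 = 0 := by simp [ρ]
  have e : (pm σ : GLn) * pm (swap 0 k) = pm (swap 0 (σ k)) * pm ρ := by
    rw [← pm_mul, ← pm_mul]
    congr 1
    simp [ρ, ← mul_assoc]
  calc Xi R (pm σ) * Lk R k y * (Xi R (pm σ))⁻¹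
      = Xi R (pm σ * pm (swap 0 k)) * B.L y * (Xi R (pm σ * pm (swap 0 k)))⁻¹ := by
        rw [Lk_apply, map_mul]; group
    _ = Xi R (pm (swap 0 (σ k))) * (Xi R (pm ρ) * B.L y * (Xi R (pm ρ))⁻¹) * (Xi R (pm (swap 0 (σ k))))⁻¹ := by
        rw [e, map_mul]; group
    _ = _ := by rw [(blk_commute R (blk_pm R hρ) y).eq, mul_inv_cancel_right, Lk_apply]

theorem Lk_dg {i k : Fin (M + 2)} (h : i ≠ k) (c : Fˣ) (y : SL(2, F)) :
    Commute (Xi R (dg i c)) (Lk R k y) := by
  have hi : swap 0 k i ≠ 0 := by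
    intro e; apply h
    have := congrArg (swap 0 k) e
    rwa [swap_apply_self, swap_apply_left] at this
  have e : (dg i c : GLn) = pm (swap 0 k) * dg (swap 0 k i) c * (pm (swap 0 k))⁻¹ := by
    rw [pm_dg, swap_apply_self]
  rw [e, map_mul, map_mul, map_inv, Lk_apply]
  exact (Commute.conj_iff _).2 (blk_commute R (blk_dg R hi c) y)

theorem Lk_xg {i j k : Fin (M + 2)} (hij : i ≠ j) (hi : i ≠ k) (hj : j ≠ k) (c : F) (y : SL(2, F)) :
    Commute (Xi R (xg i j c)) (Lk R k y) := by
  have key : ∀ a, a ≠ k → swap 0 k a ≠ 0 := by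
    intro a h e; apply h
    have := congrArg (swap 0 k) e
    rwa [swap_apply_self, swap_apply_left] at this
  have e : (xg i j c : GLn) = pm (swap 0 k) * xg (swap 0 k i) (swap 0 k j) c * (pm (swap 0 k))⁻¹ := by
    rw [pm_xg _ ((swap 0 k).injective.ne hij), swap_apply_self, swap_apply_self]
  rw [e, map_mul, map_mul, map_inv, Lk_apply]
  exact (Commute.conj_iff _).2 (blk_commute R (blk_xg R ((swap 0 k).injective.ne hij) (key i hi) (key j hj) c) y)

theorem Lk_disjoint {k l : Fin (M + 2)} (h : k ≠ l) (y z : SL(2, F)) : Commute (Lk R k y) (Lk R l z) := by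
  obtain ⟨σ, h0, h1⟩ : ∃ σ : Perm (Fin (M + 2)), σ 0 = k ∧ σ 1 = l := by
    refine ⟨swap 0 k * swap 1 (swap 0 k l), ?_, by simp⟩
    have h01 : (0 : Fin (M + 2)) ≠ 1 := by simp
    have hl : swap 0 k l ≠ 0 := by
      intro e; apply h
      have := congrArg (swap 0 k) e
      rw [swap_apply_self, swap_apply_left] at this
      exact this.symm
    rw [Perm.mul_apply, swap_apply_of_ne_of_ne h01 hl.symm, swap_apply_left]
  rw [← h0, ← h1, ← Lk_pm R σ, ← Lk_pm R σ]
  refine (Commute.conj_iff _).2 ?_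
  rw [Lk_zero]
  exact R.h01 y z

theorem Lk_tor (k : Fin (M + 2)) (c : Fˣ) : Lk R k (torHom c) = Xi R (dg k c) := by
  have e : (dg k c : GLn) = pm (swap 0 k) * dg 0 c * (pm (swap 0 k))⁻¹ := by
    rw [pm_dg, swap_apply_left]
  rw [e, map_mul, map_mul, map_inv, Xi_dg0, Lk_apply]
  rfl

/-- The Weyl element at the coordinate `k`. -/
def wk (k : Fin (M + 2)) : G := Lk R k H92.sw

theorem wk_dg (k : Fin (M + 2)) (c : Fˣ) :
    wk R k * Xi R (dg k c) * (wk R k)⁻¹ = Xi R (dg k c⁻¹) := by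
  rw [← Lk_tor R, ← Lk_tor R, wk, ← map_inv, ← map_mul, ← map_mul, sw_torHom]

theorem wk_sq (k : Fin (M + 2)) : wk R k * wk R k = Xi R (dg k (-1)) := by
  rw [← Lk_tor R, wk, ← map_mul, sw_sw]

/-- The short root elements of the upper radical. -/
def oh (j k : Fin (M + 2)) (c : F) : G := wk R k * Xi R (xg j k (-c)) * (wk R k)⁻¹

theorem oh_add (j k : Fin (M + 2)) (c d : F) : oh R j k (c + d) = oh R j k c * oh R j k d := by
  simp only [oh, neg_add, xg_add, map_mul]; group

theorem oh_zero (j k : Fin (M + 2)) : oh R j k 0 = 1 := by simp [oh]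

theorem oh_pm (σ : Perm (Fin (M + 2))) {j k : Fin (M + 2)} (h : j ≠ k) (c : F) :
    Xi R (pm σ) * oh R j k c * (Xi R (pm σ))⁻¹ = oh R (σ j) (σ k) c := by
  rw [oh, oh, ← pm_xg σ h, wk, wk, ← Lk_pm R σ k, map_mul, map_mul, map_inv]
  group

theorem oh_dg_left {j k : Fin (M + 2)} (h : j ≠ k) (a : Fˣ) (c : F) :
    Xi R (dg j a) * oh R j k c * (Xi R (dg j a))⁻¹ = oh R j k ((a : F) * c) := by
  have hc : Commute (Xi R (dg j a)) (wk R k) := Lk_dg R h a _
  have e : dg j a * xg j k (-c) * (dg j a)⁻¹ = (xg j k (-((a : F) * c)) : GLn) := by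
    rw [dg_xg _ _ h]; simp [h.symm]
  rw [oh, oh, ← e, map_mul, map_mul, map_inv]
  calc Xi R (dg j a) * (wk R k * Xi R (xg j k (-c)) * (wk R k)⁻¹) * (Xi R (dg j a))⁻¹
      = (Xi R (dg j a) * wk R k) * Xi R (xg j k (-c)) * (Xi R (dg j a) * wk R k)⁻¹ := by group
    _ = _ := by rw [hc.eq]; group

theorem oh_dg_right {j k : Fin (M + 2)} (h : j ≠ k) (a : Fˣ) (c : F) :
    Xi R (dg k a) * oh R j k c * (Xi R (dg k a))⁻¹ = oh R j k ((a : F) * c) := by
  have e : dg k a⁻¹ * xg j k (-c) * (dg k a⁻¹)⁻¹ = (xg j k (-((a : F) * c)) : GLn) := by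
    rw [dg_xg _ _ h]
    simp [h, Units.val_inv_eq_inv_val]
  have hw : Xi R (dg k a) * wk R k = wk R k * Xi R (dg k a⁻¹) := by
    have := wk_dg R k a⁻¹
    rw [inv_inv, mul_inv_eq_iff_eq_mul] at this
    exact this.symm
  calc Xi R (dg k a) * oh R j k c * (Xi R (dg k a))⁻¹
      = (Xi R (dg k a) * wk R k) * Xi R (xg j k (-c)) * (Xi R (dg k a) * wk R k)⁻¹ := by rw [oh]; group
    _ = _ := by rw [hw, oh, ← e, map_mul (Xi R), map_mul (Xi R), map_inv (Xi R)]; group

variable [Fintype F]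

theorem T_ev (k : Fin (M + 2)) (t : F) : T R (ev k) t = Lk R k (rx 0 1 t) := by
  rw [show (ev k : Vn) = ap (pm (swap 0 k)) (ev 0) by rw [ev, ev, pm_single, swap_apply_left], T_eq R, Lk_apply]
  rfl

variable (hO : B.Mix)

include hO

theorem oh_one {j k : Fin (M + 2)} (h : j ≠ k) :
    oh R j k 1 = T R (ev k + ev j) 1 * T R (ev k) (-1) * T R (ev j) (-1) := by
  have h01 : (0 : Fin (M + 2)) ≠ 1 := by simp
  have base : oh R (1 : Fin (M + 2)) 0 1 =
      T R (ev 0 + ev 1) 1 * T R (ev 0) (-1) * T R (ev 1) (-1) := by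
    have e1 : (ev 0 + ev 1 : Vn) = ap (xg 1 0 1) (ev 0) := by
      rw [ev, xg_single h01.symm, if_pos rfl, one_smul, ev]
    have e0 : T R (ev 0) (-1) = B.u (-1) := by
      rw [show (ev 0 : Vn) = ap 1 (ev 0) from (ap_one _).symm, T_eq R, map_one]; group
    rw [oh, wk, Lk_zero, Xi_xg R, hO, e1, T_eq R, Xi_xg R, e0, T_ev R 1, Lk_apply]
    rfl
  obtain ⟨σ, h0, h1⟩ : ∃ σ : Perm (Fin (M + 2)), σ 0 = k ∧ σ 1 = j := by
    refine ⟨swap 0 k * swap 1 (swap 0 k j), ?_, by simp⟩
    have hl : swap 0 k j ≠ 0 := by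
      intro e; apply h
      have := congrArg (swap 0 k) e
      rwa [swap_apply_self, swap_apply_left] at this
    rw [Perm.mul_apply, swap_apply_of_ne_of_ne h01 hl.symm, swap_apply_left]
  have hk : (ev k : Vn) = ap (pm σ) (ev 0) := by rw [ev, ev, pm_single, h0]
  have hj : (ev j : Vn) = ap (pm σ) (ev 1) := by rw [ev, ev, pm_single, h1]
  rw [hk, hj, ← ap_add, ← T_conj R, ← T_conj R, ← T_conj R, ← h0, ← h1, ← oh_pm R σ h01.symm, base]
  group

theorem oh_formula {j k : Fin (M + 2)} (h : j ≠ k) (c : F) :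
    oh R j k c = T R (ev k + c • ev j) 1 * T R (ev k) (-1) * T R (ev j) (-(c ^ 2)) := by
  rcases eq_or_ne c 0 with rfl | hc
  · rw [oh_zero, zero_smul, add_zero, zero_pow two_ne_zero, neg_zero, T_zero, mul_one, ← T_add,
      add_neg_cancel, T_zero]
  have e := oh_dg_left R h (Units.mk0 c hc) 1
  rw [Units.val_mk0, mul_one, oh_one R hO h] at e
  have ek : ap (dg j (Units.mk0 c hc)) (ev k) = (ev k : Vn) := by
    rw [ev, dg_single, if_neg h.symm, one_smul]
  have ej : ap (dg j (Units.mk0 c hc)) (ev j) = c • (ev j : Vn) := by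
    rw [ev, dg_single, if_pos rfl]; rfl
  rw [← e]
  calc Xi R (dg j (Units.mk0 c hc)) * (T R (ev k + ev j) 1 * T R (ev k) (-1) * T R (ev j) (-1)) *
        (Xi R (dg j (Units.mk0 c hc)))⁻¹
      = (Xi R (dg j (Units.mk0 c hc)) * T R (ev k + ev j) 1 * (Xi R (dg j (Units.mk0 c hc)))⁻¹) *
        (Xi R (dg j (Units.mk0 c hc)) * T R (ev k) (-1) * (Xi R (dg j (Units.mk0 c hc)))⁻¹) *
        (Xi R (dg j (Units.mk0 c hc)) * T R (ev j) (-1) * (Xi R (dg j (Units.mk0 c hc)))⁻¹) := by group
    _ = _ := by rw [T_conj, T_conj, T_conj, ap_add, ek, ej, T_smul, mul_neg, mul_one]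

theorem oh_symm {j k : Fin (M + 2)} (h : j ≠ k) (c : F) : oh R j k c = oh R k j c := by
  have e : oh R j k 1 = oh R k j 1 := by
    rw [oh_one R hO h, oh_one R hO h.symm, add_comm, mul_assoc, mul_assoc, (T_comm R _ _ _ _).eq]
  rcases eq_or_ne c 0 with rfl | hc
  · rw [oh_zero, oh_zero]
  · have e1 := oh_dg_left R h (Units.mk0 c hc) 1
    have e2 := oh_dg_right R h.symm (Units.mk0 c hc) 1
    rw [Units.val_mk0, mul_one] at e1 e2
    rw [← e1, ← e2, e]

/-- The long root elements of the upper radical. -/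
def U : Subgroup G := Subgroup.closure (Set.range fun z : Vn × F => T R z.1 z.2)

theorem T_mem (v : Vn) (t : F) : T R v t ∈ U R := Subgroup.subset_closure ⟨(v, t), rfl⟩

theorem oh_mem {j k : Fin (M + 2)} (h : j ≠ k) (c : F) : oh R j k c ∈ U R := by
  rw [oh_formula R hO h]
  exact mul_mem (mul_mem (T_mem R hO _ _) (T_mem R hO _ _)) (T_mem R hO _ _)

theorem U_comm {x y : G} (hx : x ∈ U R) (hy : y ∈ U R) : x * y = y * x :=
  Cfsg.Agent.H81.SLPres.closure_comm (by
    rintro _ ⟨a, rfl⟩ _ ⟨b, rfl⟩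
    exact T_comm R _ _ _ _) x hx y hy

theorem plane {j k : Fin (M + 2)} (h : j ≠ k) (a c t : F) :
    T R (a • ev k + c • ev j) t =
      T R (ev k) (t * a ^ 2) * oh R j k (t * a * c) * T R (ev j) (t * c ^ 2) := by
  have one : ∀ a c : F, T R (a • ev k + c • ev j) 1 =
      T R (ev k) (a ^ 2) * oh R j k (a * c) * T R (ev j) (c ^ 2) := by
    intro a c
    rcases eq_or_ne a 0 with rfl | ha
    · rw [zero_smul, zero_add, zero_pow two_ne_zero, T_zero, zero_mul, oh_zero, one_mul, one_mul, T_smul, mul_one]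
    have e : T R (ev k + c • ev j) 1 = T R (ev k) 1 * oh R j k c * T R (ev j) (c ^ 2) := by
      rw [oh_formula R hO h, T_neg, T_neg, ← mul_assoc, ← mul_assoc,
        (T_comm R (ev k) (ev k + c • ev j) 1 1).eq, mul_assoc, mul_assoc, mul_assoc, mul_inv_cancel_left,
        inv_mul_cancel, mul_one]
    have e2 := congrArg (fun z => Xi R (dg k (Units.mk0 a ha)) * z * (Xi R (dg k (Units.mk0 a ha)))⁻¹) e
    have ek : ap (dg k (Units.mk0 a ha)) (ev k) = a • (ev k : Vn) := by
      rw [ev, dg_single, if_pos rfl]; rfl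
    have ej : ap (dg k (Units.mk0 a ha)) (ev j) = (ev j : Vn) := by
      rw [ev, dg_single, if_neg h, one_smul]
    have eo := oh_dg_right R h (Units.mk0 a ha) c
    rw [Units.val_mk0] at eo
    simp only [T_conj, ap_add, ap_smul, ek, ej] at e2
    rw [e2, ← eo]
    have k1 : T R (a • ev k) 1 = T R (ev k) (a ^ 2) := by rw [T_smul, mul_one]
    rw [← k1, ← ek, ← T_conj R]
    conv_rhs => rw [← ej, ← T_conj R]
    group
  induction t using sq_ind with
  | h0 => simp [T_zero, oh_zero]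
  | hadd s t hs ht =>
    rw [T_add, hs, ht, add_mul, add_mul, add_mul, add_mul, T_add, T_add, oh_add]
    have hx1 := oh_mem R hO h (t * a * c)
    have c1 := U_comm R hO (T_mem R hO (ev j) (s * c ^ 2)) (T_mem R hO (ev k) (t * a ^ 2))
    have c2 := U_comm R hO (T_mem R hO (ev j) (s * c ^ 2)) hx1
    have c3 := U_comm R hO (oh_mem R hO h (s * a * c)) (T_mem R hO (ev k) (t * a ^ 2))
    exact shuffle c1 c2 c3
  | hsq s hs =>
    have e := one (s * a) (s * c)
    rw [← smul_smul, ← smul_smul, ← smul_add, T_smul, mul_one] at e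
    rw [e]
    congr 2 <;> first | (congr 1; ring) | skip

theorem oh_rowop {i j k : Fin (M + 2)} (hij : i ≠ j) (hjk : j ≠ k) (hik : i ≠ k) (a c : F) :
    Xi R (xg i j a) * oh R j k c * (Xi R (xg i j a))⁻¹ = oh R i k (a * c) * oh R j k c := by
  have hc : Commute (Xi R (xg i j a)) (wk R k) := Lk_xg R hij hik hjk a _
  have e : xg i j a * xg j k (-c) * (xg i j a)⁻¹ = (xg i k (-(a * c)) * xg j k (-c) : GLn) := by
    have hb := congrArg (Matrix.SpecialLinearGroup.toGL (n := Fin (M + 2)) (R := F))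
      (rx_bracket hij hjk hik a (-c))
    rw [map_commutatorElement, mul_neg, commutatorElement_def] at hb
    rw [show (xg i k (-(a * c)) : GLn) = Matrix.SpecialLinearGroup.toGL (rx i k (-(a * c))) from rfl, ← hb]
    simp only [xg]
    group
  calc Xi R (xg i j a) * oh R j k c * (Xi R (xg i j a))⁻¹
      = (Xi R (xg i j a) * wk R k) * Xi R (xg j k (-c)) * (Xi R (xg i j a) * wk R k)⁻¹ := by
        rw [oh]; group
    _ = wk R k * Xi R (xg i j a * xg j k (-c) * (xg i j a)⁻¹) * (wk R k)⁻¹ := by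
        rw [hc.eq, map_mul, map_mul, map_inv]; group
    _ = _ := by rw [e, map_mul, oh, oh]; group

theorem exists_symMap : ∃ S : Mn → G, (∀ A A', S (A + A') = S A * S A') ∧ (∀ A, S A ∈ U R) ∧
    (∀ l t, S (Matrix.single l l t) = T R (ev l) t) ∧ (∀ j k c, j ≠ k → S (pair j k c) = oh R j k c) := by
  classical
  letI : CommGroup (U R) :=
    { (inferInstance : Group (U R)) with mul_comm := fun x y => Subtype.ext (U_comm R hO x.2 y.2) }
  let τ : Fin (M + 2) → F → U R := fun i t => ⟨T R (ev i) t, T_mem R hO _ _⟩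
  let ω : Fin (M + 2) × Fin (M + 2) → F → U R :=
    fun p c => if h : p.1 < p.2 then ⟨oh R p.1 p.2 c, oh_mem R hO h.ne c⟩ else 1
  let S : Mn → U R := fun A => (∏ i, τ i (A i i)) * ∏ p, ω p (A p.1 p.2)
  have hτ : ∀ i s t, τ i (s + t) = τ i s * τ i t := fun i s t => Subtype.ext (T_add R _ s t)
  have hω : ∀ p s t, ω p (s + t) = ω p s * ω p t := fun p s t => by
    simp only [ω]
    split_ifs
    · exact Subtype.ext (oh_add R _ _ s t)
    · simp
  have τ0 : ∀ i, τ i 0 = 1 := fun i => Subtype.ext (T_zero R _)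
  have ω0 : ∀ p, ω p 0 = 1 := fun p => by
    simp only [ω]
    split_ifs
    · exact Subtype.ext (oh_zero R _ _)
    · rfl
  refine ⟨fun A => (S A : G), fun A A' => ?_, fun A => (S A).2, fun l t => ?_, fun j k c hjk => ?_⟩
  · show (S (A + A') : G) = S A * S A'
    rw [← Subgroup.coe_mul]
    congr 1
    simp only [S, Matrix.add_apply, hτ, hω, Finset.prod_mul_distrib]
    exact mul_mul_mul_comm _ _ _ _
  · have e1 : ∏ i, τ i (Matrix.single l l t i i) = τ l t := by
      rw [Finset.prod_eq_single l]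
      · simp [Matrix.single]
      · intro i _ hi; simp [Matrix.single, hi.symm, τ0]
      · simp
    have e2 : ∏ p, ω p (Matrix.single l l t p.1 p.2) = 1 := Finset.prod_eq_one fun p _ => by
      by_cases h : l = p.1 ∧ l = p.2
      · simp only [ω]; rw [dif_neg]; rw [← h.1, ← h.2]; exact lt_irrefl _
      · simp [Matrix.single, h, ω0]
    show (S _ : G) = _
    simp only [S, e1, e2, mul_one]
    rfl
  · have e1 : ∏ i, τ i (pair j k c i i) = 1 := Finset.prod_eq_one fun i _ => by
      have h1 : ¬ (j = i ∧ k = i) := fun h => hjk (h.1.trans h.2.symm)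
      have h2 : ¬ (k = i ∧ j = i) := fun h => hjk (h.2.trans h.1.symm)
      simp [pair, Matrix.single, h1, h2, τ0]
    have main : ∀ (j k : Fin (M + 2)) (h : j < k),
        ∏ p, ω p (pair j k c p.1 p.2) = ⟨oh R j k c, oh_mem R hO h.ne c⟩ := by
      intro j k h
      rw [Finset.prod_eq_single (j, k)]
      · simp [pair, Matrix.single, h.ne, h.ne', ω, h]
      · intro p _ hp
        by_cases h1 : p.1 < p.2
        · have n1 : ¬ (j = p.1 ∧ k = p.2) := fun e => hp (Prod.ext e.1.symm e.2.symm)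
          have n2 : ¬ (k = p.1 ∧ j = p.2) := by rintro ⟨rfl, rfl⟩; exact lt_asymm h h1
          simp [pair, Matrix.single, n1, n2, ω0]
        · simp only [ω]; rw [dif_neg h1]
      · simp
    show (S _ : G) = _
    simp only [S, e1, one_mul]
    rcases lt_or_gt_of_ne hjk with h | h
    · rw [main j k h]
    · have e : pair j k c = pair k j c := add_comm _ _
      rw [e, main k j h]
      exact (oh_symm R hO hjk c).symm

end SpBase

end Cfsg.Agent.H81.SpPres
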