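import Cfsg.Agent.H81.SpPres.SpCells

/-!
# The relations hold in `Sp_{2m}(q)`
-/

set_option autoImplicit false
set_option maxHeartbeats 1000000

namespace Cfsg.Agent.H81.SpPres

open Equiv Matrix Cfsg.Agent.H64.SLCover Cfsg.Agent.H81.SLnPres
open Cfsg.Agent.H58.PSpFusion (lev levS sym iota coe_lev coe_sym coe_iota lev_mul_sym sym_add sym_congr sym_zero)
open scoped MatrixGroups

variable {F : Type*} [Field F] [Fintype F] {M : ℕ}

local notation "GLn" => GL (Fin (M + 2)) F
local notation "Mn" => Matrix (Fin (M + 2)) (Fin (M + 2)) F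
set_option quotPrecheck false
local notation "Spm" => ↥(Matrix.symplecticGroup (Fin (M + 2)) F)
local notation "M2" => Matrix (Fin (M + 2) ⊕ Fin (M + 2)) (Fin (M + 2) ⊕ Fin (M + 2)) F

variable (F M) in
/-- The data inside the symplectic group. -/
def tgt : SpBase Spm F M := ⟨levS, iota 0⟩

theorem tgt_xi (A : GLn) : (tgt F M).xi A = lev A := by
  show lev (Matrix.SpecialLinearGroup.toGL (slPart A)) * iota 0 (torHom _) = _
  rw [toGL_slPart, iota_torHom, ← map_mul, inv_mul_cancel_right]

theorem single_sub (a b : F) (i j : Fin (M + 2)) :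
    Matrix.single i j (a - b) = Matrix.single i j a - Matrix.single i j b := by
  ext x y; simp [Matrix.single]; split_ifs <;> simp

theorem blk_single {A : GLn} (hA : Blk A) (x : F) :
    (A : Mn) * Matrix.single 0 0 x = Matrix.single 0 0 x ∧ Matrix.single 0 0 x * (A : Mn) = Matrix.single 0 0 x := by
  have h1 : ∀ a, (A : Mn) a 0 = (Pi.single 0 1 : Fin (M + 2) → F) a := fun a => by
    have := congrFun hA.1 a
    simpa [ap, ev, Matrix.mulVec_single_one] using this
  have h2 : ∀ a, a ≠ 0 → (A : Mn) 0 a = 0 := fun a ha => by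
    have := hA.2 a ha
    simpa [ap, ev, Matrix.mulVec_single_one] using this
  constructor <;> ext a b
  · by_cases hb : b = 0
    · subst hb
      rw [Matrix.mul_single_apply_same, h1]
      by_cases ha : a = 0
      · subst ha; simp
      · simp [ha, Ne.symm ha, Matrix.single]
    · rw [Matrix.mul_single_apply_of_ne _ _ _ _ _ hb]
      simp [Matrix.single, Ne.symm hb]
  · by_cases ha : a = 0
    · subst ha
      rw [Matrix.single_mul_apply_same]
      by_cases hb : b = 0
      · subst hb; simp [h1]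
      · simp [h2 b hb, Matrix.single, Ne.symm hb]
    · rw [Matrix.single_mul_apply_of_ne _ _ _ _ _ ha]
      simp [Matrix.single, Ne.symm ha]

theorem blk_commute_iota {A : GLn} (hA : Blk A) (y : SL(2, F)) : Commute (lev A) (iota 0 y) := by
  have hinv : Blk A⁻¹ := by
    have e : ∀ v, ap A⁻¹ (ap A v) = v := fun v => by rw [← ap_mul, inv_mul_cancel, ap_one]
    refine ⟨by conv_lhs => rw [← hA.1, e], fun a ha => ?_⟩
    have h0 : ∀ v, ap A v 0 = v 0 := fun v => by
      have := row_linear A (1 : GLn) (l := 0) (l' := 0) (fun b => ?_) v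
      · rwa [ap_one] at this
      · rw [ap_one]
        by_cases hb : b = 0
        · subst hb; rw [hA.1]
        · rw [hA.2 b hb]; simp [ev, Ne.symm hb]
    rw [← h0 (ap A⁻¹ (ev a)), ← ap_mul, mul_inv_cancel, ap_one]
    simp [ev, Ne.symm ha]
  apply Subtype.ext
  show ((lev A : Spm) : M2) * ((iota 0 y : Spm) : M2) = ((iota 0 y : Spm) : M2) * ((lev A : Spm) : M2)
  rw [coe_lev, coe_iota, Matrix.fromBlocks_multiply, Matrix.fromBlocks_multiply]
  have t1 : ∀ x : F, (((A⁻¹ : GLn) : Mn))ᵀ * Matrix.single 0 0 x = Matrix.single 0 0 x := fun x => by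
    have := congrArg Matrix.transpose (blk_single hinv x).2
    rwa [Matrix.transpose_mul, Matrix.transpose_single] at this
  have t2 : ∀ x : F, Matrix.single 0 0 x * (((A⁻¹ : GLn) : Mn))ᵀ = Matrix.single 0 0 x := fun x => by
    have := congrArg Matrix.transpose (blk_single hinv x).1
    rwa [Matrix.transpose_mul, Matrix.transpose_single] at this
  simp only [Matrix.mul_add, Matrix.add_mul, mul_one, one_mul, zero_mul, mul_zero, add_zero, zero_add,
    (blk_single hA _).1, (blk_single hA _).2, t1, t2]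

theorem blk_dg {c : Fˣ} {i : Fin (M + 2)} (hi : i ≠ 0) : Blk (dg i c : GLn) := by
  refine ⟨?_, fun a ha => ?_⟩
  · rw [ev, dg_single, if_neg hi.symm, one_smul]
  · rw [ev, dg_single]; simp [Ne.symm ha]

theorem tgt_rels : (tgt F M).Rels where
  hd c S S' h := by
    show iota 0 (torHom c) * lev (Matrix.SpecialLinearGroup.toGL S) * (iota 0 (torHom c))⁻¹ =
      lev (Matrix.SpecialLinearGroup.toGL S')
    rw [h, map_mul, map_mul, map_inv, iota_torHom]
  hs S hS y := blk_commute_iota hS y
  hd1 c y := by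
    rw [tgt_xi]
    exact blk_commute_iota (blk_dg (by simp)) y
  hx := by
    show Commute (iota 0 (rx 0 1 1)) (lev (xg (0 : Fin (M + 2)) 1 1))
    have h01 : (0 : Fin (M + 2)) ≠ 1 := by simp
    have he : ap (xg (0 : Fin (M + 2)) 1 (1 : F)) (ev 0) = ev 0 := by
      rw [ev, xg_single h01, if_neg h01]
    have := lev_mul_sym (xg (0 : Fin (M + 2)) 1 (1 : F)) ((1 : F) • outer (ev 0)) (outer_isSymm _ _)
    rw [iota_sx, show sym (Matrix.single (0 : Fin (M + 2)) 0 (1 : F)) (Matrix.transpose_single _ _ _) =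
      sym ((1 : F) • outer (ev 0)) (outer_isSymm _ _) from sym_congr (outer_ev 0 1).symm]
    refine Commute.symm (mul_inv_eq_iff_eq_mul.1 (this.trans (sym_congr ?_)))
    rw [conj_outer, he]
  h01 a b := by
    rw [tgt_xi]
    show Commute (iota 0 a) (lev (pm (swap 0 1)) * iota 0 b * (lev (pm (swap 0 1)))⁻¹)
    have h01 : (0 : Fin (M + 2)) ≠ 1 := by simp
    have e : lev (pm (swap 0 1) : GLn) * iota 0 b * (lev (pm (swap 0 1)))⁻¹ = iota (1 : Fin (M + 2)) b := by
      rw [mul_inv_eq_iff_eq_mul]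
      apply Subtype.ext
      rw [Submonoid.coe_mul, Submonoid.coe_mul, coe_lev, coe_iota, coe_iota,
        Matrix.fromBlocks_multiply, Matrix.fromBlocks_multiply]
      have hP : ((pm (swap 0 1) : GLn) : Mn) = (swap 0 1).permMatrix F := by
        show (swap 0 1)⁻¹.permMatrix F = _
        rw [swap_inv]
      have hPi : ((((pm (swap 0 1) : GLn))⁻¹ : GLn) : Mn)ᵀ = (swap 0 1).permMatrix F := by
        rw [show (((pm (swap 0 1) : GLn)⁻¹ : GLn) : Mn) = (swap 0 1).permMatrix F from rfl,
          Matrix.transpose_permMatrix, swap_inv]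
      have hs : ∀ x : F, ((swap (0 : Fin (M + 2)) 1).permMatrix F) * Matrix.single 0 0 x =
          Matrix.single 1 1 x * ((swap (0 : Fin (M + 2)) 1).permMatrix F) := by
        intro x
        ext i j
        simp [Equiv.Perm.permMatrix, PEquiv.toMatrix_toPEquiv_mul, PEquiv.mul_toMatrix_toPEquiv, Matrix.single,
          Equiv.swap_apply_def]
        grind
      rw [hP, hPi]
      simp only [Matrix.mul_add, Matrix.add_mul, hs, mul_one, one_mul, zero_mul, mul_zero, add_zero, zero_add]
    rw [e]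
    have hz : ∀ x y : F, Matrix.single (0 : Fin (M + 2)) 0 x * Matrix.single (1 : Fin (M + 2)) (1 : Fin (M + 2)) y = 0 := fun x y =>
      by simp
    have hz' : ∀ x y : F, Matrix.single (1 : Fin (M + 2)) 1 x * Matrix.single (0 : Fin (M + 2)) (0 : Fin (M + 2)) y = 0 := fun x y =>
      by simp
    apply Subtype.ext
    show ((iota 0 a : Spm) : M2) * ((iota 1 b : Spm) : M2) = ((iota 1 b : Spm) : M2) * ((iota 0 a : Spm) : M2)
    rw [coe_iota, coe_iota, Matrix.fromBlocks_multiply, Matrix.fromBlocks_multiply]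
    simp only [Matrix.mul_add, Matrix.add_mul, hz, hz', mul_one, one_mul, add_zero, zero_add]
    congr 1 <;> abel

theorem tgt_mix : (tgt F M).Mix := by
  have h01 : (0 : Fin (M + 2)) ≠ 1 := by simp
  have hu : ∀ t : F, (tgt F M).u t = sym (t • outer (ev 0)) (outer_isSymm t _) := fun t =>
    (iota_sx 0 t).trans (sym_congr (outer_ev 0 t).symm)
  have e1 : lev (xg (1 : Fin (M + 2)) 0 (1 : F)) * sym ((1 : F) • outer (ev 0)) (outer_isSymm _ _) *
      (lev (xg (1 : Fin (M + 2)) 0 (1 : F)))⁻¹ = sym ((1 : F) • outer (ev 0 + ev 1)) (outer_isSymm _ _) := by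
    refine (lev_mul_sym _ _ _).trans (sym_congr ?_)
    rw [conj_outer, ev, xg_single h01.symm, if_pos rfl, one_smul, one_smul]
    simp [ev]
  have e2 : lev (pm (swap 0 1) : GLn) * sym ((-1 : F) • outer (ev 0)) (outer_isSymm _ _) *
      (lev (pm (swap 0 1) : GLn))⁻¹ = sym ((-1 : F) • outer (ev 1)) (outer_isSymm _ _) := by
    refine (lev_mul_sym _ _ _).trans (sym_congr ?_)
    rw [conj_outer, ev, pm_single, swap_apply_left]
    rfl
  unfold SpBase.Mix
  rw [tgt_xi, hu, hu]
  show iota 0 H92.sw * lev (xg (1 : Fin (M + 2)) 0 (-1 : F)) * (iota 0 H92.sw)⁻¹ =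
    lev (xg (1 : Fin (M + 2)) 0 (1 : F)) * sym ((1 : F) • outer (ev 0)) _ *
      (lev (xg (1 : Fin (M + 2)) 0 (1 : F)))⁻¹ * sym ((-1 : F) • outer (ev 0)) _ * _
  rw [e1, e2, sym_add, sym_add, mul_inv_eq_iff_eq_mul]
  apply Subtype.ext
  rw [Submonoid.coe_mul, Submonoid.coe_mul, coe_iota, coe_lev, xg_inv, neg_neg]
  show _ = Matrix.fromBlocks 1 _ 0 1 * _
  rw [Matrix.fromBlocks_multiply, Matrix.fromBlocks_multiply]
  have hx : ∀ t : F, ((xg (1 : Fin (M + 2)) 0 t : GLn) : Mn) = 1 + Matrix.single 1 0 t := fun t =>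
    rx_coe h01.symm t
  rw [hx, hx, Matrix.transpose_add, Matrix.transpose_one, Matrix.transpose_single]
  have hS : (1 : F) • outer (ev 0 + ev 1 : Fin (M + 2) → F) + (-1 : F) • outer (ev 0) + (-1 : F) • outer (ev 1) =
      Matrix.single 0 1 1 + Matrix.single 1 0 1 := by
    ext a b
    simp [outer, Matrix.vecMulVec_apply, ev, Pi.single_apply, Matrix.single]
    grind
  simp only [H92.sw_00, H92.sw_01, H92.sw_10, H92.sw_11, zero_sub, hS]
  congr 1 <;>
  · simp [Matrix.mul_add, Matrix.add_mul, h01, h01.symm]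
    try abel
    try (ext a b; simp [Matrix.single, Matrix.one_apply]; grind)

end Cfsg.Agent.H81.SpPres
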